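import Cfsg.Agent.Lib.Helper97.C3.Basic

set_option autoImplicit false

namespace Cfsg.Agent.Lib.Helper97.C3

open Module

variable {F K V : Type*} [Field F] [Field K] [Algebra F K] [AddCommGroup V]
  [Module F V] [Module K V] [IsScalarTower F K V]

/-- `(u, f)` is a pair whose adapted transvection (with respect to `κ0`) lies in `X`. -/
private def AD3_S (X : Subgroup (V ≃ₗ[F] V)) (κ0 : K →ₗ[F] F) (u : V) (f : V →ₗ[K] K) : Prop :=
  ∃ h : f u = 0, atv κ0 f u h ∈ X

private lemma AD3_tower (f : V →ₗ[K] K) (c : F) (x : V) : f (c • x) = c • f x :=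
  f.map_smul_of_tower c x

private lemma AD3_add_u {X : Subgroup (V ≃ₗ[F] V)} {κ0 : K →ₗ[F] F} {u u' : V} {f : V →ₗ[K] K}
    (h1 : AD3_S X κ0 u f) (h2 : AD3_S X κ0 u' f) : AD3_S X κ0 (u + u') f := by
  obtain ⟨h, hx⟩ := h1
  obtain ⟨h', hx'⟩ := h2
  refine ⟨by rw [map_add, h, h', add_zero], ?_⟩
  have : atv κ0 f (u + u') (by rw [map_add, h, h', add_zero]) = atv κ0 f u h * atv κ0 f u' h' := by
    ext v
    rw [LinearEquiv.mul_apply, atv_apply, atv_apply, atv_apply, map_add, AD3_tower, h', smul_zero,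
      add_zero]
    module
  rw [this]
  exact X.mul_mem hx hx'

private lemma AD3_neg_u {X : Subgroup (V ≃ₗ[F] V)} {κ0 : K →ₗ[F] F} {u : V} {f : V →ₗ[K] K}
    (h1 : AD3_S X κ0 u f) : AD3_S X κ0 (-u) f := by
  obtain ⟨h, hx⟩ := h1
  refine ⟨by rw [map_neg, h, neg_zero], ?_⟩
  have : atv κ0 f (-u) (by rw [map_neg, h, neg_zero]) = (atv κ0 f u h)⁻¹ := by
    apply eq_inv_of_mul_eq_one_left
    ext v
    rw [LinearEquiv.mul_apply, atv_apply, atv_apply, map_add, AD3_tower, h, smul_zero,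
      add_zero, LinearEquiv.coe_one, id]
    module
  rw [this]
  exact X.inv_mem hx

private lemma AD3_add_f {X : Subgroup (V ≃ₗ[F] V)} {κ0 : K →ₗ[F] F} {u : V} {f f' : V →ₗ[K] K}
    (h1 : AD3_S X κ0 u f) (h2 : AD3_S X κ0 u f') : AD3_S X κ0 u (f + f') := by
  obtain ⟨h, hx⟩ := h1
  obtain ⟨h', hx'⟩ := h2
  have h0 : (f + f') u = 0 := by rw [LinearMap.add_apply, h, h', add_zero]
  refine ⟨h0, ?_⟩
  have : atv κ0 (f + f') u h0 = atv κ0 f u h * atv κ0 f' u h' := by
    ext v
    rw [LinearEquiv.mul_apply, atv_apply, atv_apply, atv_apply, map_add, AD3_tower, h, smul_zero,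
      add_zero, LinearMap.add_apply, map_add]
    module
  rw [this]
  exact X.mul_mem hx hx'

private lemma AD3_neg_f {X : Subgroup (V ≃ₗ[F] V)} {κ0 : K →ₗ[F] F} {u : V} {f : V →ₗ[K] K}
    (h1 : AD3_S X κ0 u f) : AD3_S X κ0 u (-f) := by
  obtain ⟨h, hx⟩ := h1
  have h0 : (-f) u = 0 := by rw [LinearMap.neg_apply, h, neg_zero]
  refine ⟨h0, ?_⟩
  have : atv κ0 (-f) u h0 = (atv κ0 f u h)⁻¹ := by
    apply eq_inv_of_mul_eq_one_left
    ext v
    rw [LinearEquiv.mul_apply, atv_apply, atv_apply, LinearMap.neg_apply, map_add, AD3_tower, h,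
      smul_zero, add_zero, LinearEquiv.coe_one, id, map_neg]
    module
  rw [this]
  exact X.inv_mem hx

private lemma AD3_conj {X : Subgroup (V ≃ₗ[F] V)} (hX : Big K X) {κ0 : K →ₗ[F] F} {u : V}
    {f : V →ₗ[K] K} (h1 : AD3_S X κ0 u f) (gg : V →ₗ[K] K) (y : V) (hy : gg y = 0) :
    AD3_S X κ0 (u + gg u • y) (f - f y • gg) := by
  obtain ⟨h, hx⟩ := h1
  have h0 : (f - f y • gg) (u + gg u • y) = 0 := by
    simp only [LinearMap.sub_apply, LinearMap.smul_apply, map_add, map_smul, smul_eq_mul, h, hy]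
    ring
  refine ⟨h0, ?_⟩
  have : atv κ0 (f - f y • gg) (u + gg u • y) h0 =
      ktv F gg y hy * atv κ0 f u h * (ktv F gg y hy)⁻¹ := by
    ext v
    rw [LinearEquiv.mul_apply, LinearEquiv.mul_apply, ktv_inv_apply, atv_apply, atv_apply,
      ktv_apply]
    simp only [LinearMap.sub_apply, LinearMap.smul_apply, map_add, map_sub, map_smul, smul_eq_mul,
      hy, AD3_tower, mul_zero, sub_zero]
    rw [mul_comm (f y) (gg v), Algebra.smul_def]
    module
  rw [this]
  exact X.mul_mem (X.mul_mem (ktv_mem hX _ _ _) hx) (X.inv_mem (ktv_mem hX _ _ _))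

private lemma AD3_step1 [FiniteDimensional K V] (hm : 3 ≤ finrank K V)
    {X : Subgroup (V ≃ₗ[F] V)} (hX : Big K X) {κ0 : K →ₗ[F] F} {u : V} {f : V →ₗ[K] K}
    (hS : AD3_S X κ0 u f) (hu : u ≠ 0) (u' : V) (hu' : f u' = 0) : AD3_S X κ0 u' f := by
  have key : ∀ y, f y = 0 → y ∉ Submodule.span K {u} → AD3_S X κ0 y f := by
    intro y hy hyu
    have hu2 : u ∉ Submodule.span K {y} := by
      intro hmem
      obtain ⟨c, hc⟩ := Submodule.mem_span_singleton.1 hmem
      have hc0 : c ≠ 0 := by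
        rintro rfl
        rw [zero_smul] at hc
        exact hu hc.symm
      apply hyu
      rw [Submodule.mem_span_singleton]
      exact ⟨c⁻¹, by rw [← hc, smul_smul, inv_mul_cancel₀ hc0, one_smul]⟩
    obtain ⟨g0, hg0y, hg0u⟩ := exists_fun_one hu2
    have h1 := AD3_conj hX hS g0 y hg0y
    rw [hg0u, one_smul, hy, zero_smul, sub_zero] at h1
    have h2 := AD3_add_u h1 (AD3_neg_u hS)
    have e : u + y + -u = y := by abel
    rwa [e] at h2
  obtain ⟨y0, hy0, hy0u⟩ : ∃ y0, f y0 = 0 ∧ y0 ∉ Submodule.span K {u} := by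
    have hnle : ¬ (LinearMap.ker f ≤ Submodule.span K {u}) := by
      intro hle
      have h1 := Submodule.finrank_mono hle
      rw [finrank_span_singleton hu] at h1
      have h2 := LinearMap.finrank_range_add_finrank_ker f
      have h3 := Submodule.finrank_le (LinearMap.range f)
      rw [finrank_self] at h3
      omega
    obtain ⟨y0, h1, h2⟩ := SetLike.not_le_iff_exists.1 hnle
    exact ⟨y0, h1, h2⟩
  by_cases hmem : u' ∈ Submodule.span K {u}
  · have h1 : AD3_S X κ0 (u' + y0) f := by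
      apply key
      · rw [map_add, hu', hy0, add_zero]
      · intro h
        apply hy0u
        have := Submodule.sub_mem _ h hmem
        rwa [add_sub_cancel_left] at this
    have h2 := AD3_add_u h1 (AD3_neg_u (key y0 hy0 hy0u))
    rwa [add_neg_cancel_right] at h2
  · exact key u' hu' hmem

private lemma AD3_step2 [FiniteDimensional K V] (hm : 3 ≤ finrank K V)
    {X : Subgroup (V ≃ₗ[F] V)} (hX : Big K X) {κ0 : K →ₗ[F] F} {u : V} {f : V →ₗ[K] K}
    (hS : AD3_S X κ0 u f) (hf : f ≠ 0) (f' : V →ₗ[K] K) (hf' : f' u = 0) : AD3_S X κ0 u f' := by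
  have key : ∀ gg : V →ₗ[K] K, gg u = 0 → (∀ c : K, gg ≠ c • f) → AD3_S X κ0 u gg := by
    intro gg hgu hgf
    obtain ⟨y, hy, hfy⟩ : ∃ y, gg y = 0 ∧ f y = 1 := by
      by_contra hcon
      push Not at hcon
      have hker : ∀ y, gg y = 0 → f y = 0 := by
        intro y hy
        by_contra hne
        apply hcon ((f y)⁻¹ • y) (by rw [map_smul, hy, smul_zero])
        rw [map_smul, smul_eq_mul, inv_mul_cancel₀ hne]
      have hg0 : gg ≠ 0 := by
        intro h
        apply hgf 0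
        rw [h, zero_smul]
      obtain ⟨z, hz⟩ : ∃ z, gg z ≠ 0 := by
        by_contra h
        push Not at h
        exact hg0 (LinearMap.ext h)
      have hfe : ∀ v, f v = (f z * (gg z)⁻¹) * gg v := by
        intro v
        have h1 := hker (v - (gg v * (gg z)⁻¹) • z) (by
          rw [map_sub, map_smul, smul_eq_mul, mul_assoc, inv_mul_cancel₀ hz, mul_one, sub_self])
        rw [map_sub, map_smul, smul_eq_mul, sub_eq_zero] at h1
        rw [h1]; ring
      have hc0 : f z * (gg z)⁻¹ ≠ 0 := by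
        intro h
        apply hf
        ext v
        rw [hfe, h, zero_mul, LinearMap.zero_apply]
      apply hgf (f z * (gg z)⁻¹)⁻¹
      ext v
      rw [LinearMap.smul_apply, hfe v, smul_eq_mul, ← mul_assoc, inv_mul_cancel₀ hc0, one_mul]
    have h1 := AD3_conj hX hS gg y hy
    rw [hgu, zero_smul, add_zero, hfy, one_smul] at h1
    have h2 := AD3_add_f hS (AD3_neg_f h1)
    have e : f + -(f - gg) = gg := by abel
    rwa [e] at h2
  obtain ⟨z, hz⟩ : ∃ z, f z ≠ 0 := by
    by_contra h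
    push Not at h
    exact hf (LinearMap.ext h)
  obtain ⟨g0, z', hg0u, hg0z, hg0z'⟩ := exists_fun_ne₂ hm u z
  have hg0f : ∀ c : K, g0 ≠ c • f := by
    intro c hc
    have h1 : c * f z = 0 := by
      have := LinearMap.congr_fun hc z
      rw [hg0z, LinearMap.smul_apply, smul_eq_mul] at this
      exact this.symm
    have hc0 : c = 0 := (mul_eq_zero.1 h1).resolve_right hz
    rw [hc0, zero_smul] at hc
    rw [hc] at hg0z'
    simp at hg0z'
  by_cases h : ∃ c : K, f' = c • f
  · obtain ⟨c, hc⟩ := h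
    have h1 : AD3_S X κ0 u (f' + g0) := by
      apply key
      · rw [LinearMap.add_apply, hf', hg0u, add_zero]
      · intro c' hc'
        apply hg0f (c' - c)
        have e : (c' - c) • f = c' • f - c • f := sub_smul c' c f
        rw [e, ← hc', ← hc, add_sub_cancel_left]
    have h2 := AD3_add_f h1 (AD3_neg_f (key g0 hg0u hg0f))
    rwa [add_neg_cancel_right] at h2
  · push Not at h
    exact key f' hf' h

theorem allATV_of_three [FiniteDimensional F K] [FiniteDimensional K V] (hm : 3 ≤ finrank K V)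
    (X : Subgroup (V ≃ₗ[F] V)) (hX : Big K X) (h : HasATV K X) : AllATV K X := by
  obtain ⟨κ0, f0, u0, h0, hκ0, hf0, hu0, hmem⟩ := h
  have hS0 : AD3_S X κ0 u0 f0 := ⟨h0, hmem⟩
  have hall : ∀ (u : V) (f : V →ₗ[K] K), f u = 0 → AD3_S X κ0 u f := by
    intro u f hfu
    by_cases hu : u = 0
    · subst hu
      refine ⟨hfu, ?_⟩
      have : atv κ0 f 0 hfu = 1 := by
        ext v
        simp
      rw [this]
      exact X.one_mem
    by_cases hf : f = 0
    · subst hf
      refine ⟨hfu, ?_⟩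
      have : atv κ0 (0 : V →ₗ[K] K) u hfu = 1 := by
        ext v
        simp
      rw [this]
      exact X.one_mem
    obtain ⟨u', hu'0, hu'1, hu'2⟩ : ∃ u' : V, u' ≠ 0 ∧ f0 u' = 0 ∧ f u' = 0 := by
      have hlt : finrank K (K × K) < finrank K V := by
        rw [Module.finrank_prod, finrank_self]; omega
      have h1 := LinearMap.ker_ne_bot_of_finrank_lt (f := f0.prod f) hlt
      obtain ⟨u', hu', hne⟩ := (Submodule.ne_bot_iff _).1 h1
      rw [LinearMap.mem_ker, LinearMap.prod_apply] at hu'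
      have hu2 : (f0 u', f u') = (0 : K × K) := hu'
      rw [Prod.mk_eq_zero] at hu2
      exact ⟨u', hne, hu2.1, hu2.2⟩
    have s1 := AD3_step1 hm hX hS0 hu0 u' hu'1
    have s2 := AD3_step2 hm hX s1 hf0 f hu'2
    exact AD3_step1 hm hX s2 hu'0 u hfu
  intro κ f u hfu
  obtain ⟨μ, hμ⟩ := dualK hκ0 κ
  have hz : (μ • f) u = 0 := by rw [LinearMap.smul_apply, hfu, smul_zero]
  obtain ⟨_, hx⟩ := hall u (μ • f) hz
  have : atv κ f u hfu = atv κ0 (μ • f) u hz := by
    ext v
    rw [atv_apply, atv_apply, hμ, LinearMap.smul_apply, smul_eq_mul]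
  rw [this]
  exact hx

end Cfsg.Agent.Lib.Helper97.C3
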