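import Cfsg.Agent.Lib.Helper97.C3.Basic

set_option autoImplicit false

namespace Cfsg.Agent.Lib.Helper97.C3

open Module

variable {F K V : Type*} [Field F] [Field K] [Algebra F K] [AddCommGroup V]
  [Module F V] [Module K V] [IsScalarTower F K V]

theorem all_transvections [FiniteDimensional F K] [FiniteDimensional K V] (hm : 2 ≤ finrank K V)
    (X : Subgroup (V ≃ₗ[F] V)) (h : AllATV K X) (φ : Module.Dual F V) (v : V) (hφ : φ v = 0) :
    LinearEquiv.transvection hφ ∈ X := by
  obtain ⟨κ0, hκ1⟩ := exists_kappa (F := F) (K := K) (one_ne_zero)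
  have hκ0 : κ0 ≠ 0 := by
    rintro rfl
    simp at hκ1
  obtain ⟨f, hf⟩ := dualV hκ0 φ
  by_cases hfv : f v = 0
  · have : LinearEquiv.transvection hφ = atv κ0 f v hfv := by
      ext y
      rw [LinearEquiv.transvection.apply, atv_apply, hf]
    rw [this]
    exact h κ0 f v hfv
  · obtain ⟨f', y, hf'v, hf'y⟩ := exists_fun_ne hm v
    obtain ⟨v', hv', hfv', hv'0⟩ : ∃ v' : V, f' v' = 1 ∧ f v' = 0 ∧ v' ≠ 0 := by
      have h1 : f' (y - (f y * (f v)⁻¹) • v) = 1 := by
        rw [map_sub, map_smul, hf'v, smul_zero, sub_zero, hf'y]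
      refine ⟨y - (f y * (f v)⁻¹) • v, h1, ?_, ?_⟩
      · rw [map_sub, map_smul, smul_eq_mul, mul_assoc, inv_mul_cancel₀ hfv, mul_one, sub_self]
      · intro h0
        rw [h0, map_zero] at h1
        exact zero_ne_one h1
    have hvw : v ∉ Submodule.span K {v - v'} := by
      intro hmem
      obtain ⟨c, hc⟩ := Submodule.mem_span_singleton.1 hmem
      have e1 := congrArg f hc
      have e2 := congrArg f' hc
      rw [map_smul, map_sub, hfv', sub_zero, smul_eq_mul] at e1
      rw [map_smul, map_sub, hf'v, hv', smul_eq_mul] at e2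
      have hc1 : c = 1 := mul_right_cancel₀ hfv (by rw [e1, one_mul])
      rw [hc1] at e2
      simp at e2
    obtain ⟨g, hgw, hgv⟩ := exists_fun_one hvw
    have hgv' : g v' = 1 := by
      rw [map_sub, hgv] at hgw
      exact (sub_eq_zero.1 hgw).symm
    have hφv' : φ v' = 0 := by rw [hf, hfv', map_zero]
    have key : atv κ0 g (v - v') hgw * atv κ0 f v' hfv' =
        LinearEquiv.transvection hφ * atv κ0 g (v - v') hgw := by
      ext z
      show atv κ0 g (v - v') hgw (atv κ0 f v' hfv' z) =
        LinearEquiv.transvection hφ (atv κ0 g (v - v') hgw z)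
      rw [LinearEquiv.transvection.apply]
      simp only [atv_apply, map_add, map_smul, hgv', hκ1, ← hf,
        map_sub, hφ, hφv', smul_eq_mul, sub_self, mul_zero, add_zero]
      rw [one_smul, add_sub_cancel]
    have : LinearEquiv.transvection hφ =
        atv κ0 g (v - v') hgw * atv κ0 f v' hfv' * (atv κ0 g (v - v') hgw)⁻¹ := by
      rw [key, mul_inv_cancel_right]
    rw [this]
    exact X.mul_mem (X.mul_mem (h _ _ _ _) (h _ _ _ _)) (X.inv_mem (h _ _ _ _))

end Cfsg.Agent.Lib.Helper97.C3
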