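import Cfsg.Agent.Lib.Helper97.C3.Defs

/-!
# Ladder C3: basic linear algebra over `F ⊆ K`
-/

set_option autoImplicit false

namespace Cfsg.Agent.Lib.Helper97.C3

open Module

variable {F K V : Type*} [Field F] [Field K] [Algebra F K] [AddCommGroup V]
  [Module F V] [Module K V] [IsScalarTower F K V]

/-- A `K`-functional vanishing at `x` with value `1` at `y ∉ Kx`. -/
lemma exists_fun_one {x y : V} (h : y ∉ Submodule.span K {x}) :
    ∃ f : V →ₗ[K] K, f x = 0 ∧ f y = 1 := by
  obtain ⟨f, hf1, hf2⟩ := Submodule.exists_dual_map_eq_bot_of_notMem h inferInstance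
  refine ⟨(f y)⁻¹ • f, ?_, ?_⟩
  · have : f x ∈ (Submodule.span K {x}).map f := ⟨x, Submodule.mem_span_singleton_self x, rfl⟩
    rw [hf2] at this
    simp [(Submodule.mem_bot K).1 this]
  · simp [hf1]

lemma exists_fun_one' {x y : V} (h : y ∉ kpt F K x) :
    ∃ f : V →ₗ[K] K, f x = 0 ∧ f y = 1 := exists_fun_one (K := K) h

/-- In `K`-dimension at least two there is a non-zero `K`-functional vanishing at `x`. -/
lemma exists_fun_ne [FiniteDimensional K V] (hm : 2 ≤ finrank K V) (x : V) :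
    ∃ (f : V →ₗ[K] K) (y : V), f x = 0 ∧ f y = 1 := by
  have : ∃ y : V, y ∉ Submodule.span K {x} := by
    by_contra hcon
    push Not at hcon
    have h1 : Submodule.span K {x} = ⊤ := eq_top_iff.2 fun y _ => hcon y
    have h2 := finrank_span_le_card (R := K) ({x} : Set V)
    rw [h1, finrank_top] at h2
    simp at h2
    omega
  obtain ⟨y, hy⟩ := this
  obtain ⟨f, h1, h2⟩ := exists_fun_one hy
  exact ⟨f, y, h1, h2⟩

/-- In `K`-dimension at least three there is a non-zero `K`-functional vanishing at `x` and `y`. -/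
lemma exists_fun_ne₂ [FiniteDimensional K V] (hm : 3 ≤ finrank K V) (x y : V) :
    ∃ (f : V →ₗ[K] K) (z : V), f x = 0 ∧ f y = 0 ∧ f z = 1 := by
  have : ∃ z : V, z ∉ Submodule.span K {x, y} := by
    by_contra hcon
    push Not at hcon
    have h1 : Submodule.span K {x, y} = ⊤ := eq_top_iff.2 fun y _ => hcon y
    classical
    have h2 := finrank_span_finset_le_card (R := K) ({x, y} : Finset V)
    have h4 : ((({x, y} : Finset V) : Set V)) = {x, y} := by simp
    rw [h4, Set.finrank, h1, finrank_top] at h2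
    have h3 : ({x, y} : Finset V).card ≤ 2 := Finset.card_le_two
    omega
  obtain ⟨z, hz⟩ := this
  obtain ⟨f, hf1, hf2⟩ := Submodule.exists_dual_map_eq_bot_of_notMem hz inferInstance
  have hv : ∀ w ∈ Submodule.span K {x, y}, f w = 0 := by
    intro w hw
    have : f w ∈ (Submodule.span K {x, y}).map f := ⟨w, hw, rfl⟩
    rw [hf2] at this
    exact (Submodule.mem_bot K).1 this
  refine ⟨(f z)⁻¹ • f, z, ?_, ?_, ?_⟩
  · simp [hv x (Submodule.subset_span (by simp))]
  · simp [hv y (Submodule.subset_span (by simp))]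
  · simp [hf1]

/-- The `F`-dimension of a `K`-point. -/
lemma finrank_kpt {x : V} (hx : x ≠ 0) : finrank F ↥(kpt F K x) = finrank F K := by
  let e0 : K →ₗ[F] ↥(kpt F K x) :=
      { toFun := fun a => (⟨a • x, smul_mem_kpt a x⟩ : ↥(kpt F K x))
        map_add' := fun a b => by ext; simp [add_smul]
        map_smul' := fun c a => by ext; simp }
  have e : K ≃ₗ[F] ↥(kpt F K x) :=
    LinearEquiv.ofBijective e0
      ⟨fun a b hab => by
          have : a • x = b • x := congrArg Subtype.val hab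
          exact smul_left_injective K hx this,
        fun ⟨y, hy⟩ => by
          obtain ⟨a, rfl⟩ := mem_kpt.1 hy
          exact ⟨a, rfl⟩⟩
  exact e.finrank_eq.symm

/-- Two `K`-points with a common non-zero vector coincide. -/
lemma kpt_eq_of_mem {x y : V} (hy : y ≠ 0) (h : y ∈ kpt F K x) : kpt F K y = kpt F K x := by
  obtain ⟨a, rfl⟩ := mem_kpt.1 h
  have ha : a ≠ 0 := by rintro rfl; simp at hy
  ext z
  rw [mem_kpt, mem_kpt]
  constructor
  · rintro ⟨b, rfl⟩; exact ⟨b * a, by rw [mul_smul]⟩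
  · rintro ⟨b, rfl⟩; exact ⟨b * a⁻¹, by rw [smul_smul, mul_assoc, inv_mul_cancel₀ ha, mul_one]⟩

/-- Prime degree: an `F`-subspace of `K` other than `0`, `K` is stabilised only by `F`. -/
lemma stab_eq_bot (hr : (finrank F K).Prime) (W : Submodule F K) (h0 : W ≠ ⊥) (h1 : W ≠ ⊤)
    (μ : K) (hμ : ∀ w ∈ W, μ * w ∈ W) : ∃ c : F, algebraMap F K c = μ := by
  let S : Subalgebra F K :=
    { carrier := {μ | ∀ w ∈ W, μ * w ∈ W}
      mul_mem' := fun {a b} ha hb w hw => by rw [mul_assoc]; exact ha _ (hb _ hw)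
      add_mem' := fun {a b} ha hb w hw => by rw [add_mul]; exact W.add_mem (ha _ hw) (hb _ hw)
      algebraMap_mem' := fun c w hw => by
        rw [← Algebra.smul_def]; exact W.smul_mem c hw }
  have hS := (Subalgebra.isSimpleOrder_of_finrank_prime F K hr).eq_bot_or_eq_top S
  rcases hS with hS | hS
  · have : μ ∈ S := hμ
    rw [hS] at this
    exact Algebra.mem_bot.1 this
  · exfalso
    apply h1
    obtain ⟨w, hw, hw0⟩ := (Submodule.ne_bot_iff W).1 h0
    rw [eq_top_iff]
    intro z _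
    have : z * w⁻¹ ∈ S := by rw [hS]; trivial
    have h2 := this w hw
    rwa [mul_assoc, inv_mul_cancel₀ hw0, mul_one] at h2

/-- Every `F`-functional on `K` is `κ₀ (μ * ·)`. -/
lemma dualK [FiniteDimensional F K] {κ₀ : K →ₗ[F] F} (h0 : κ₀ ≠ 0) (κ : K →ₗ[F] F) :
    ∃ μ : K, ∀ l : K, κ l = κ₀ (μ * l) := by
  let Ψ : K →ₗ[F] (K →ₗ[F] F) :=
    { toFun := fun μ => κ₀ ∘ₗ LinearMap.mulLeft F μ
      map_add' := fun a b => by ext l; simp [add_mul]
      map_smul' := fun c a => by ext l; simp }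
  have hinj : Function.Injective Ψ := by
    rw [← LinearMap.ker_eq_bot, LinearMap.ker_eq_bot']
    intro μ hμ
    by_contra hne
    apply h0
    ext l
    have := LinearMap.congr_fun hμ (μ⁻¹ * l)
    simpa [Ψ, ← mul_assoc, mul_inv_cancel₀ hne] using this
  have hsurj : Function.Surjective Ψ := by
    apply (LinearMap.injective_iff_surjective_of_finrank_eq_finrank ?_).1 hinj
    exact (Subspace.dual_finrank_eq (K := F) (V := K)).symm
  obtain ⟨μ, hμ⟩ := hsurj κ
  exact ⟨μ, fun l => by rw [← hμ]; rfl⟩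

/-- Every `F`-functional on `V` is `κ₀ ∘ f` for a `K`-functional `f`. -/
lemma dualV [FiniteDimensional F K] {κ₀ : K →ₗ[F] F} (h0 : κ₀ ≠ 0) (φ : V →ₗ[F] F) :
    ∃ f : V →ₗ[K] K, ∀ v : V, φ v = κ₀ (f v) := by
  have huniq : ∀ a b : K, (∀ l : K, κ₀ (a * l) = κ₀ (b * l)) → a = b := by
    intro a b hab
    by_contra hne
    apply h0
    ext l
    have := hab ((a - b)⁻¹ * l)
    have h2 : κ₀ ((a - b) * ((a - b)⁻¹ * l)) = 0 := by
      rw [sub_mul, map_sub, this, sub_self]
    rwa [← mul_assoc, mul_inv_cancel₀ (sub_ne_zero.2 hne), one_mul] at h2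
  have hex : ∀ v : V, ∃ μ : K, ∀ l : K, φ (l • v) = κ₀ (μ * l) := by
    intro v
    let κ : K →ₗ[F] F :=
      { toFun := fun l => φ (l • v)
        map_add' := fun a b => by simp [add_smul]
        map_smul' := fun c a => by simp }
    exact dualK h0 κ
  choose f hf using hex
  refine ⟨{ toFun := f, map_add' := ?_, map_smul' := ?_ }, fun v => ?_⟩
  · intro v w
    apply huniq
    intro l
    rw [← hf, smul_add, map_add, hf, hf, add_mul, map_add]
  · intro a v
    apply huniq
    intro l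
    rw [← hf, smul_smul, hf, RingHom.id_apply, smul_eq_mul]
    congr 1; ring
  · have := hf v 1
    simpa using this

/-- There is an `F`-functional on `K` with value one at a given non-zero element. -/
lemma exists_kappa {a : K} (ha : a ≠ 0) : ∃ κ : K →ₗ[F] F, κ a = 1 := by
  obtain ⟨f, hf⟩ := not_forall.1 ((Module.forall_dual_apply_eq_zero_iff F a).not.2 ha)
  exact ⟨(f a)⁻¹ • f, by simp [hf]⟩

variable (K) in
/-- `Close` with the hyperplane `{l | l • x ∈ g (K x₀)}` of `K` presented as the kernel of `ω`. -/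
def CloseW (X : Subgroup (V ≃ₗ[F] V)) (x : V) (g : V ≃ₗ[F] V) (x₀ : V) (ω : K →ₗ[F] F) : Prop :=
  x ≠ 0 ∧ x₀ ≠ 0 ∧ g ∈ X ∧ ω ≠ 0 ∧
    ∀ l : K, ω l = 0 ↔ l • x ∈ (kpt F K x₀).map g.toLinearMap

/-- `X` induces on the `K`-point of `x` (identified with `K`) all transvections
`l ↦ l + ω l • a`, `a ∈ ker ω`. -/
def TAct (X : Subgroup (V ≃ₗ[F] V)) (x : V) (ω : K →ₗ[F] F) : Prop :=
  ∀ a : K, ω a = 0 → ∃ t ∈ X, ∀ l : K, t (l • x) = l • x + ω l • (a • x)

end Cfsg.Agent.Lib.Helper97.C3
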