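import Cfsg.Agent.Lib.Helper97.C3.Basic

set_option autoImplicit false

namespace Cfsg.Agent.Lib.Helper97.C3

open Module

variable {F K V : Type*} [Field F] [Field K] [Algebra F K] [AddCommGroup V]
  [Module F V] [Module K V] [IsScalarTower F K V]

/-- the `F`-linear map `l ↦ l • x`. -/
def rk1_phi (x : V) : K →ₗ[F] V := (LinearMap.toSpanSingleton K V x).restrictScalars F

theorem rk1_phi_apply (x : V) (l : K) : rk1_phi (F := F) x l = l • x := rfl

theorem rk1_phi_injective {x : V} (hx : x ≠ 0) :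
    Function.Injective (rk1_phi (F := F) (K := K) x) :=
  fun _ _ hab => smul_left_injective K hx hab

theorem rk1_range (x : V) : LinearMap.range (rk1_phi (F := F) (K := K) x) = kpt F K x := by
  ext y
  rw [mem_kpt]
  rfl

/-- the dimension of `{l | l • x ∈ P'}`. -/
theorem rk1_finrank_comap {x : V} (hx : x ≠ 0) (P' : Submodule F V) :
    finrank F ↥(P'.comap (rk1_phi (F := F) (K := K) x)) = finrank F ↥(kpt F K x ⊓ P') := by
  rw [← rk1_range, ← Submodule.map_comap_eq]
  exact (Submodule.equivMapOfInjective _ (rk1_phi_injective hx) _).finrank_eq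

theorem closeW_of_close [FiniteDimensional F K] [FiniteDimensional K V]
    (X : Subgroup (V ≃ₗ[F] V)) {x x₀ : V} {g : V ≃ₗ[F] V} (h : Close K X x g x₀) :
    ∃ ω : K →ₗ[F] F, CloseW K X x g x₀ ω := by
  obtain ⟨hx, hx₀, hg, hfin⟩ := h
  have h1 := rk1_finrank_comap (F := F) (K := K) hx ((kpt F K x₀).map g.toLinearMap)
  obtain ⟨l1, hl1⟩ : ∃ l1 : K, l1 ∉ ((kpt F K x₀).map g.toLinearMap).comap
      (rk1_phi (F := F) (K := K) x) := by
    by_contra hc
    push Not at hc
    have h2 : ((kpt F K x₀).map g.toLinearMap).comap (rk1_phi (F := F) (K := K) x) = ⊤ :=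
      eq_top_iff.2 fun y _ => hc y
    rw [h2, finrank_top] at h1
    omega
  obtain ⟨ω, hω1, hω2⟩ := Submodule.exists_le_ker_of_notMem hl1
  have hω0 : ω ≠ 0 := by
    rintro rfl
    exact hω1 rfl
  have h3 := Module.Dual.finrank_ker_add_one_of_ne_zero hω0
  have h4 : ((kpt F K x₀).map g.toLinearMap).comap (rk1_phi (F := F) (K := K) x) =
      LinearMap.ker ω := Submodule.eq_of_le_of_finrank_le hω2 (by omega)
  refine ⟨ω, hx, hx₀, hg, hω0, fun l => ?_⟩
  rw [← LinearMap.mem_ker, ← h4]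
  rfl

end Cfsg.Agent.Lib.Helper97.C3
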