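import Cfsg.Agent.Lib.Helper97.C3.TLAM
import Cfsg.Agent.Lib.Helper97.C3.RK1

set_option autoImplicit false

namespace Cfsg.Agent.Lib.Helper97.C3

open Module

variable {F K V : Type*} [Field F] [Field K] [Algebra F K] [AddCommGroup V]
  [Module F V] [Module K V] [IsScalarTower F K V]

theorem hasATV_of_three [FiniteDimensional F K] [FiniteDimensional K V] (hm : 3 ≤ finrank K V)
    (X : Subgroup (V ≃ₗ[F] V)) (hX : Big K X) {x x₀ : V} {g : V ≃ₗ[F] V} {ω : K →ₗ[F] F}
    (h : CloseW K X x g x₀ ω) : HasATV K X := by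
  have : FiniteDimensional F V := Module.Finite.trans K V
  obtain ⟨f0, hf0, hf1⟩ := tlam_exists_f0 X h
  obtain ⟨hx, hx₀, hg, hω0, hω⟩ := h
  -- dimensions
  have hker : ((kpt F K x₀).map g.toLinearMap).comap (rk1_phi (F := F) (K := K) x) =
      LinearMap.ker ω := by
    ext l
    rw [LinearMap.mem_ker, hω]
    rfl
  have d1 : finrank F ↥(kpt F K x ⊓ (kpt F K x₀).map g.toLinearMap) + 1 = finrank F K := by
    rw [← rk1_finrank_comap hx, hker]
    exact Module.Dual.finrank_ker_add_one_of_ne_zero hω0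
  have d2 : finrank F ↥((kpt F K x₀).map g.toLinearMap) = finrank F K := by
    have := LinearEquiv.finrank_map_eq g (kpt F K x₀)
    rw [finrank_kpt hx₀] at this
    exact this
  obtain ⟨w, hwP', hwP⟩ : ∃ w ∈ (kpt F K x₀).map g.toLinearMap, w ∉ kpt F K x := by
    by_contra hc
    push Not at hc
    have : kpt F K x ⊓ (kpt F K x₀).map g.toLinearMap = (kpt F K x₀).map g.toLinearMap :=
      inf_eq_right.2 hc
    rw [this] at d1
    omega
  have hQ : (kpt F K x ⊓ (kpt F K x₀).map g.toLinearMap) ⊔ Submodule.span F {w} =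
      (kpt F K x₀).map g.toLinearMap := by
    apply Submodule.eq_of_le_of_finrank_le
    · exact sup_le inf_le_right ((Submodule.span_singleton_le_iff_mem _ _).2 hwP')
    · have hlt : kpt F K x ⊓ (kpt F K x₀).map g.toLinearMap <
          (kpt F K x ⊓ (kpt F K x₀).map g.toLinearMap) ⊔ Submodule.span F {w} := by
        refine lt_of_le_of_ne le_sup_left fun heq => hwP ?_
        have : w ∈ kpt F K x ⊓ (kpt F K x₀).map g.toLinearMap := by
          rw [heq]
          exact Submodule.mem_sup_right (Submodule.mem_span_singleton_self w)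
        exact this.1
      have := Submodule.finrank_lt_finrank_of_lt hlt
      omega
  obtain ⟨f, z, hfx, hfw, hfz⟩ := exists_fun_ne₂ hm x w
  have hfP' : ∀ y ∈ (kpt F K x₀).map g.toLinearMap, f y = 0 := by
    intro y hy
    rw [← hQ] at hy
    obtain ⟨d, hd, e, he, rfl⟩ := Submodule.mem_sup.1 hy
    obtain ⟨c, rfl⟩ := Submodule.mem_span_singleton.1 he
    obtain ⟨a, rfl⟩ := mem_kpt.1 hd.1
    rw [map_add, map_smul, hfx, LinearMap.map_smul_of_tower, hfw, smul_zero, smul_zero, add_zero]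
  have hgP' : ∀ a : K, g (a • x₀) ∈ (kpt F K x₀).map g.toLinearMap :=
    fun a => ⟨a • x₀, smul_mem_kpt a x₀, rfl⟩
  have hfg : ∀ a : K, f (g (a • x₀)) = 0 := fun a => hfP' _ (hgP' a)
  have hfgx : f (g x₀) = 0 := by
    have := hfg 1
    rwa [one_smul] at this
  have hfu : f (-(g x₀)) = 0 := by rw [map_neg, hfgx, neg_zero]
  have hf0' : f ≠ 0 := by
    rintro rfl
    simp at hfz
  have hu0 : -(g x₀) ≠ 0 := by
    rw [neg_ne_zero]
    intro h0
    exact hx₀ (g.map_eq_zero_iff.1 h0)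
  refine ⟨ω, f, -(g x₀), hfu, hω0, hf0', hu0, ?_⟩
  have hu' : g * ktv F f0 x₀ hf0 * g⁻¹ ∈ X :=
    X.mul_mem (X.mul_mem hg (ktv_mem hX _ _ _)) (X.inv_mem hg)
  have ht : ktv F f x hfx ∈ X := ktv_mem hX _ _ _
  have eu : ∀ y, (g * ktv F f0 x₀ hf0 * g⁻¹) y = y + g (f0 (g.symm y) • x₀) := by
    intro y
    have e1 : (g * ktv F f0 x₀ hf0 * g⁻¹) y = g (ktv F f0 x₀ hf0 (g.symm y)) := rfl
    rw [e1, ktv_apply, map_add, LinearEquiv.apply_symm_apply]
  have key : ktv F f x hfx * (g * ktv F f0 x₀ hf0 * g⁻¹) =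
      atv ω f (-(g x₀)) hfu * (g * ktv F f0 x₀ hf0 * g⁻¹) * ktv F f x hfx := by
    ext v
    show ktv F f x hfx ((g * ktv F f0 x₀ hf0 * g⁻¹) v) =
      atv ω f (-(g x₀)) hfu ((g * ktv F f0 x₀ hf0 * g⁻¹) (ktv F f x hfx v))
    rw [eu, eu, ktv_apply, ktv_apply, atv_apply]
    have e2 : g (f0 (g.symm (v + f v • x)) • x₀) = g (f0 (g.symm v) • x₀) + ω (f v) • g x₀ := by
      rw [map_add, map_add, hf1, add_smul, map_add, algebraMap_smul, LinearEquiv.map_smul]
    rw [e2]
    simp only [map_add, map_smul, hfg, hfx, hfgx, LinearMap.map_smul_of_tower, smul_zero, add_zero,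
      smul_neg]
    abel
  have : atv ω f (-(g x₀)) hfu = ktv F f x hfx * (g * ktv F f0 x₀ hf0 * g⁻¹) *
      (ktv F f x hfx)⁻¹ * (g * ktv F f0 x₀ hf0 * g⁻¹)⁻¹ := by
    rw [key]; group
  rw [this]
  exact X.mul_mem (X.mul_mem (X.mul_mem ht hu') (X.inv_mem ht)) (X.inv_mem hu')

end Cfsg.Agent.Lib.Helper97.C3
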