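import Cfsg.Agent.Lib.Helper97.C3.Basic

set_option autoImplicit false

namespace Cfsg.Agent.Lib.Helper97.C3

open Module

variable {F K V : Type*} [Field F] [Field K] [Algebra F K] [AddCommGroup V]
  [Module F V] [Module K V] [IsScalarTower F K V]

private lemma R222_F [Fintype F] (hq : Fintype.card F = 2) : ∀ c : F, c = 0 ∨ c = 1 := by
  intro c
  have h := FiniteField.pow_card c
  rw [hq] at h
  have h2 : c * (c - 1) = 0 := by linear_combination h
  rcases mul_eq_zero.1 h2 with h3 | h3
  · exact Or.inl h3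
  · exact Or.inr (sub_eq_zero.1 h3)

private lemma R222_twoF [Fintype F] (hq : Fintype.card F = 2) : (2 : F) = 0 := by
  rcases R222_F hq 2 with h | h
  · exact h
  · exfalso
    have : (1 : F) = 0 := by linear_combination h
    exact one_ne_zero this

private lemma R222_twoK [Fintype F] (hq : Fintype.card F = 2) : (2 : K) = 0 := by
  have := congrArg (algebraMap F K) (R222_twoF hq)
  rwa [map_ofNat, map_zero] at this

private lemma R222_K [Fintype F] [FiniteDimensional F K] (hr : finrank F K = 2)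
    (hq : Fintype.card F = 2) :
    ∃ w : K, w * w = w + 1 ∧ ∀ l : K, l = 0 ∨ l = 1 ∨ l = w ∨ l = w + 1 := by
  classical
  have h2 : (2 : K) = 0 := R222_twoK (F := F) hq
  have : Finite K := Module.finite_of_finite F
  have := Fintype.ofFinite K
  have hcK : Fintype.card K = 4 := by
    rw [Module.card_eq_pow_finrank (K := F) (V := K), hq, hr]; norm_num
  have hpow : ∀ l : K, l ≠ 0 → l ≠ 1 → l * l = l + 1 := by
    intro l h0 h1
    have h := FiniteField.pow_card l
    rw [hcK] at h
    have h3 : l * ((l - 1) * (l * l + l + 1)) = 0 := by linear_combination h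
    rcases mul_eq_zero.1 h3 with h4 | h4
    · exact absurd h4 h0
    · rcases mul_eq_zero.1 h4 with h5 | h5
      · exact absurd (sub_eq_zero.1 h5) h1
      · linear_combination h5 - (l + 1) * h2
  obtain ⟨w, hw0, hw1⟩ : ∃ w : K, w ≠ 0 ∧ w ≠ 1 := by
    by_contra hcon
    push Not at hcon
    have : Fintype.card K ≤ 2 := by
      have hsub : (Finset.univ : Finset K) ⊆ {0, 1} := by
        intro l _
        by_cases hl : l = 0
        · simp [hl]
        · simp [hcon l hl]
      calc Fintype.card K = (Finset.univ : Finset K).card := rfl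
        _ ≤ ({0, 1} : Finset K).card := Finset.card_le_card hsub
        _ ≤ 2 := Finset.card_le_two
    omega
  refine ⟨w, hpow w hw0 hw1, fun l => ?_⟩
  by_cases h0 : l = 0
  · exact Or.inl h0
  by_cases h1 : l = 1
  · exact Or.inr (Or.inl h1)
  have hl := hpow l h0 h1
  have hw := hpow w hw0 hw1
  have h3 : (l - w) * (l - (w + 1)) = 0 := by linear_combination hl + hw + (1 - l * w + w) * h2
  rcases mul_eq_zero.1 h3 with h4 | h4
  · exact Or.inr (Or.inr (Or.inl (sub_eq_zero.1 h4)))
  · exact Or.inr (Or.inr (Or.inr (sub_eq_zero.1 h4)))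

private lemma R222_det (hF : ∀ c : F, c = 0 ∨ c = 1) (e : V ≃ₗ[F] V) : LinearEquiv.det e = 1 := by
  apply Units.ext
  rcases hF (LinearEquiv.det e : Fˣ) with h | h
  · exact absurd h (Units.ne_zero _)
  · simpa using h

private lemma R222_mem (hF : ∀ c : F, c = 0 ∨ c = 1) {X : Subgroup (V ≃ₗ[F] V)} (hX : Big K X)
    (e : V ≃ₗ[F] V) (he : Nrm K e) : e ∈ X := hX e he (R222_det hF e)

private lemma R222_kappa (hF : ∀ c : F, c = 0 ∨ c = 1) {w : K} (hw : w * w = w + 1) :
    ∃ κ : K →ₗ[F] F, κ 1 = 0 ∧ κ w = 1 := by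
  apply exists_fun_one (K := F) (V := K)
  rw [Submodule.mem_span_singleton]
  rintro ⟨c, hc⟩
  rcases hF c with rfl | rfl
  · rw [zero_smul] at hc
    rw [← hc] at hw
    simp at hw
  · rw [one_smul] at hc
    rw [← hc] at hw
    simp at hw

private lemma R222_ker [FiniteDimensional K V] (hm : finrank K V = 2) {x u : V} (hx : x ≠ 0)
    (f : V →ₗ[K] K) {z : V} (hz : f z = 1) (hfx : f x = 0) (hfu : f u = 0) :
    ∃ k : K, u = k • x := by
  have hsurj : LinearMap.range f = ⊤ := by
    rw [LinearMap.range_eq_top]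
    intro c
    exact ⟨c • z, by simp [hz]⟩
  have h1 := LinearMap.finrank_range_add_finrank_ker f
  rw [hsurj, finrank_top, finrank_self, hm] at h1
  have h2 : finrank K (LinearMap.ker f) = 1 := by omega
  have h3 := (finrank_eq_one_iff_of_nonzero' (⟨x, hfx⟩ : LinearMap.ker f)
    (by intro h; exact hx (congrArg Subtype.val h))).1 h2 ⟨u, hfu⟩
  obtain ⟨c, hc⟩ := h3
  exact ⟨c, (congrArg Subtype.val hc).symm⟩

private lemma R222_NT0 [FiniteDimensional K V] (hF : ∀ c : F, c = 0 ∨ c = 1) (h2 : (2 : K) = 0)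
    {w : K} (hw : w * w = w + 1) (hK : ∀ l : K, l = 0 ∨ l = 1 ∨ l = w ∨ l = w + 1)
    (hm : finrank K V = 2) (X : Subgroup (V ≃ₗ[F] V)) (hX : Big K X) (hno : ¬ HasATV K X)
    {x₀ : V} (hx₀ : x₀ ≠ 0) (y : V ≃ₗ[F] V) (hy : y ∈ X)
    (h1 : ∀ v, ∃ k : K, y v = v + k • x₀) (h3 : ∀ k : K, y (k • x₀) = k • x₀) :
    ∀ v, y (w • v) = w • y v := by
  obtain ⟨fx, vbar, hfx, hfv⟩ := exists_fun_ne hm.ge x₀
  obtain ⟨κ, hκ1, hκw⟩ := R222_kappa hF hw
  obtain ⟨α, hα⟩ := h1 vbar
  obtain ⟨β, hβ⟩ := h1 (w • vbar)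
  have hdec : ∀ v, ∃ k : K, v = fx v • vbar + k • x₀ := by
    intro v
    obtain ⟨k, hk⟩ := R222_ker hm hx₀ fx hfv hfx (u := v - fx v • vbar) (by simp [hfv])
    exact ⟨k, by rw [← hk]; abel⟩
  by_cases hβα : β = w * α
  · have hl : ∀ l : K, y (l • vbar) = l • vbar + (l * α) • x₀ := by
      intro l
      rcases hK l with rfl | rfl | rfl | rfl
      · simp
      · simpa using hα
      · rw [hβ, hβα]
      · rw [add_smul, map_add, hβ, one_smul, hα, hβα]
        module
    have hyv : ∀ v, y v = v + (fx v * α) • x₀ := by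
      intro v
      obtain ⟨k, hk⟩ := hdec v
      have : y (fx v • vbar + k • x₀) = fx v • vbar + k • x₀ + (fx v * α) • x₀ := by
        rw [map_add, hl, h3]; abel
      rwa [← hk] at this
    intro v
    rw [hyv, hyv, map_smul, smul_eq_mul]
    module
  · exfalso
    apply hno
    have hγ : β + w * α ≠ 0 := by
      intro h
      apply hβα
      linear_combination h - w * α * h2
    have hz : (α • fx) x₀ = 0 := by simp [hfx]
    have hz' : fx ((β + w * α) • x₀) = 0 := by simp [hfx]
    refine ⟨κ, fx, (β + w * α) • x₀, hz', ?_, ?_, ?_, ?_⟩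
    · intro h; rw [h] at hκw; simp at hκw
    · intro h; rw [h] at hfv; simp at hfv
    · exact smul_ne_zero hγ hx₀
    · have he : atv κ fx ((β + w * α) • x₀) hz' = y * ktv F (α • fx) x₀ hz := by
        ext v
        rw [LinearEquiv.mul_apply, atv_apply, ktv_apply, map_add, h3]
        have key : ∀ l k : K, (l • vbar + k • x₀) + κ l • ((β + w * α) • x₀) =
            y (l • vbar + k • x₀) + (α * l) • x₀ := by
          intro l k
          rw [map_add, h3]
          rcases hK l with rfl | rfl | rfl | rfl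
          · simp
          · rw [hκ1, one_smul, hα]
            linear_combination (norm := module) (-h2) • (α • x₀)
          · rw [hκw, hβ]
            module
          · rw [map_add, hκw, hκ1, add_smul w 1 vbar, map_add, hβ, one_smul, hα]
            linear_combination (norm := module) (-h2) • (α • x₀)
        obtain ⟨k, hk⟩ := hdec v
        have := key (fx v) k
        rw [← hk] at this
        simpa using this
      rw [he]
      exact X.mul_mem hy (ktv_mem hX _ _ _)

private lemma R222_NT [FiniteDimensional K V] (hF : ∀ c : F, c = 0 ∨ c = 1) (h2 : (2 : K) = 0)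
    {w : K} (hw : w * w = w + 1) (hK : ∀ l : K, l = 0 ∨ l = 1 ∨ l = w ∨ l = w + 1)
    (hm : finrank K V = 2) (X : Subgroup (V ≃ₗ[F] V)) (hX : Big K X) (hno : ¬ HasATV K X)
    {x₀ : V} (hx₀ : x₀ ≠ 0) (g : V ≃ₗ[F] V) (hg : g ∈ X) (y : V ≃ₗ[F] V) (hy : y ∈ X)
    (h1 : ∀ v, ∃ k : K, y v = v + g (k • x₀)) (h3 : ∀ k : K, y (g (k • x₀)) = g (k • x₀)) :
    ∀ v, y (g (w • g.symm v)) = g (w • g.symm (y v)) := by
  have hy0 : g⁻¹ * y * g ∈ X := X.mul_mem (X.mul_mem (X.inv_mem hg) hy) hg
  have hap : ∀ v, (g⁻¹ * y * g) v = g.symm (y (g v)) := fun v => rfl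
  have := R222_NT0 hF h2 hw hK hm X hX hno hx₀ _ hy0 ?_ ?_
  · intro v
    have h4 := this (g.symm v)
    rw [hap, hap, LinearEquiv.apply_symm_apply] at h4
    rw [← h4, LinearEquiv.apply_symm_apply]
  · intro v
    obtain ⟨k, hk⟩ := h1 (g v)
    exact ⟨k, by rw [hap, hk, map_add, LinearEquiv.symm_apply_apply,
      LinearEquiv.symm_apply_apply]⟩
  · intro k
    rw [hap, h3, LinearEquiv.symm_apply_apply]

private lemma R222_hsq (h2 : (2 : K) = 0)
    {w : K} (hw : w * w = w + 1) (hK : ∀ l : K, l = 0 ∨ l = 1 ∨ l = w ∨ l = w + 1) (l : K) :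
    (l * l) * (l * l) = l := by
  have key : ∀ x : K, x * x = x + 1 → (x * x) * (x * x) = x := by
    intro x hx
    linear_combination (x * x + x + 2) * hx + (x + 1) * h2
  rcases hK l with h | h | h | h
  · simp [h]
  · simp [h]
  · rw [h]; exact key w hw
  · rw [h]; exact key (w + 1) (by linear_combination hw + w * h2)

private lemma R222_phi (hF : ∀ c : F, c = 0 ∨ c = 1) (h2 : (2 : K) = 0)
    {w : K} (hw : w * w = w + 1) (hK : ∀ l : K, l = 0 ∨ l = 1 ∨ l = w ∨ l = w + 1)
    (c0 c1 : V →ₗ[K] K) (a b : V)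
    (h00 : c0 a = 1) (h01 : c0 b = 0) (h10 : c1 a = 0) (h11 : c1 b = 1)
    (hdec : ∀ v, v = c0 v • a + c1 v • b) :
    ∃ φ : V ≃ₗ[F] V, Nrm K φ ∧ ∀ v, φ v = (c0 v * c0 v) • a + (c1 v * c1 v) • b := by
  let φl : V →ₗ[F] V :=
    { toFun := fun v => (c0 v * c0 v) • a + (c1 v * c1 v) • b
      map_add' := fun u v => by
        rw [map_add, map_add]
        linear_combination (norm := module) h2 • ((c0 u * c0 v) • a + (c1 u * c1 v) • b)
      map_smul' := fun c v => by
        rcases hF c with rfl | rfl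
        · simp
        · simp }
  have hφl : ∀ v, φl v = (c0 v * c0 v) • a + (c1 v * c1 v) • b := fun v => rfl
  have hinv : Function.Involutive φl := by
    intro v
    rw [hφl (φl v), hφl v]
    simp only [map_add, map_smul, h00, h01, h10, h11, smul_eq_mul, mul_one, mul_zero, add_zero,
      zero_add]
    rw [R222_hsq h2 hw hK, R222_hsq h2 hw hK]
    exact (hdec v).symm
  refine ⟨LinearEquiv.ofInvolutive φl hinv, ?_, fun v => rfl⟩
  intro k
  refine ⟨k * k, fun v => ?_⟩
  change φl (k • v) = (k * k) • φl v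
  rw [hφl, hφl, map_smul, map_smul, smul_eq_mul, smul_eq_mul]
  module

private lemma R222_sq (hF : ∀ c : F, c = 0 ∨ c = 1) (h2 : (2 : K) = 0)
    (f : V →ₗ[K] K) (e1 : V) (hfe : f e1 = 0) :
    ∃ s : V ≃ₗ[F] V, ∀ v, s v = v + (f v * f v) • e1 := by
  let sl : V →ₗ[F] V :=
    { toFun := fun v => v + (f v * f v) • e1
      map_add' := fun u v => by
        rw [map_add]
        linear_combination (norm := module) h2 • ((f u * f v) • e1)
      map_smul' := fun c v => by
        rcases hF c with rfl | rfl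
        · simp
        · simp }
  have hsl : ∀ v, sl v = v + (f v * f v) • e1 := fun v => rfl
  have hinv : Function.Involutive sl := by
    intro v
    rw [hsl (sl v), hsl v]
    simp only [map_add, map_smul, hfe, smul_eq_mul, mul_zero, add_zero]
    linear_combination (norm := module) h2 • ((f v * f v) • e1)
  exact ⟨LinearEquiv.ofInvolutive sl hinv, fun v => rfl⟩

private lemma R222_coords [FiniteDimensional K V] (hm : finrank K V = 2) {a b : V} (ha0 : a ≠ 0)
    (hab : ∀ k : K, b ≠ k • a) :
    ∃ c0 c1 : V →ₗ[K] K, c0 a = 1 ∧ c0 b = 0 ∧ c1 a = 0 ∧ c1 b = 1 ∧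
      ∀ v, v = c0 v • a + c1 v • b := by
  have hli : LinearIndependent K ![a, b] := by
    rw [LinearIndependent.pair_iff]
    intro s t hst
    have ht : t = 0 := by
      by_contra ht
      apply hab (-(t⁻¹ * s))
      have h1 : t • b = -(s • a) := by linear_combination (norm := module) hst
      calc b = t⁻¹ • (t • b) := by rw [smul_smul, inv_mul_cancel₀ ht, one_smul]
        _ = _ := by rw [h1]; module
    subst ht
    simp only [zero_smul, add_zero, smul_eq_zero] at hst
    exact ⟨hst.resolve_right ha0, rfl⟩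
  let B := basisOfLinearIndependentOfCardEqFinrank hli (by simp [hm])
  have hB0 : B 0 = a := by simp [B]
  have hB1 : B 1 = b := by simp [B]
  refine ⟨B.coord 0, B.coord 1, ?_, ?_, ?_, ?_, ?_⟩
  · rw [← hB0]; simp
  · rw [← hB1]; simp
  · rw [← hB0]; simp
  · rw [← hB1]; simp
  · intro v
    have := B.sum_repr v
    rw [Fin.sum_univ_two, hB0, hB1] at this
    exact this.symm

theorem hasATV_of_two_two_two [Fintype F] [FiniteDimensional F K] [FiniteDimensional K V]
    (hr : finrank F K = 2) (hm : finrank K V = 2) (hq : Fintype.card F = 2)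
    (X : Subgroup (V ≃ₗ[F] V)) (hX : Big K X) (g : V ≃ₗ[F] V) (hg : g ∈ X) (x₀ : V)
    (hx₀ : ∀ y : V, (kpt F K x₀).map g.toLinearMap ≠ kpt F K y) : HasATV K X := by
  by_contra hno
  have hF := R222_F hq
  have h2 : (2 : K) = 0 := R222_twoK (F := F) hq
  obtain ⟨w, hw, hK⟩ := R222_K hr hq
  have hw0 : w ≠ 0 := by rintro rfl; simp at hw
  have hx0 : x₀ ≠ 0 := by
    rintro rfl
    apply hx₀ 0
    have hbot : kpt F K (0 : V) = ⊥ := by
      ext z
      simp [mem_kpt, eq_comm]
    rw [hbot, Submodule.map_bot]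
  obtain ⟨a, ha⟩ : ∃ a, a = g x₀ := ⟨_, rfl⟩
  obtain ⟨b, hb⟩ : ∃ b, b = g (w • x₀) := ⟨_, rfl⟩
  have hg0 : g ((0 : K) • x₀) = 0 := by simp
  have hg1 : g ((1 : K) • x₀) = a := by simp [ha]
  have hgw : g (w • x₀) = b := hb.symm
  have hgw1 : g ((w + 1) • x₀) = b + a := by rw [add_smul, map_add, one_smul, ← ha, ← hb]
  have hgadd : ∀ j k : K, g ((j + k) • x₀) = g (j • x₀) + g (k • x₀) := by
    intro j k; rw [add_smul, map_add]
  have ha0 : a ≠ 0 := by
    rw [ha]; intro h; exact hx0 (by simpa using h)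
  have hV2 : ∀ v : V, v + v = 0 := fun v => by linear_combination (norm := module) h2 • v
  have hab : ∀ k : K, b ≠ k • a := by
    intro k hk
    apply hx₀ a
    have : FiniteDimensional F V := FiniteDimensional.trans F K V
    apply Submodule.eq_of_le_of_finrank_eq
    · rintro z ⟨u, hu, rfl⟩
      obtain ⟨l, rfl⟩ := mem_kpt.1 hu
      change g (l • x₀) ∈ _
      rcases hK l with rfl | rfl | rfl | rfl
      · rw [hg0]; exact Submodule.zero_mem _
      · rw [hg1]; exact self_mem_kpt a
      · rw [hgw, hk]; exact smul_mem_kpt k a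
      · rw [hgw1, hk]; exact Submodule.add_mem _ (smul_mem_kpt k a) (self_mem_kpt a)
    · rw [LinearEquiv.finrank_map_eq, finrank_kpt hx0, finrank_kpt ha0]
  obtain ⟨c0, c1, h00, h01, h10, h11, hdec⟩ := R222_coords hm ha0 hab
  -- the conjugate of the scalar `w`
  let sw : V ≃ₗ[F] V := (LinearEquiv.smulOfNeZero K V w hw0).restrictScalars F
  have hswX : sw ∈ X := R222_mem hF hX sw (nrm_restrictScalars _)
  obtain ⟨W, hWX, hW⟩ : ∃ W ∈ X, ∀ v, W v = g (w • g.symm v) :=
    ⟨g * sw * g⁻¹, X.mul_mem (X.mul_mem hg hswX) (X.inv_mem hg), fun v => rfl⟩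
  have hWg : ∀ k : K, W (g (k • x₀)) = g ((w * k) • x₀) := by
    intro k; rw [hW, LinearEquiv.symm_apply_apply, smul_smul]
  have hWa : W a = b := by rw [ha, hW, LinearEquiv.symm_apply_apply, hb]
  have hWb : W b = a + b := by
    rw [hb, hW, LinearEquiv.symm_apply_apply, smul_smul, hw, hgw1, hb, add_comm]
  have hWW : ∀ v, W (W v) = W v + v := by
    intro v
    rw [hW (W v), hW v, LinearEquiv.symm_apply_apply, smul_smul, hw, add_smul, one_smul, map_add,
      LinearEquiv.apply_symm_apply]
  have NT : ∀ y ∈ X, (∀ v, ∃ k : K, y v = v + g (k • x₀)) →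
      (∀ k : K, y (g (k • x₀)) = g (k • x₀)) → ∀ v, y (W v) = W (y v) := by
    intro y hy h1 h3 v
    rw [hW, hW]
    exact R222_NT hF h2 hw hK hm X hX hno hx0 g hg y hy h1 h3 v
  -- the Frobenius map in the coordinates `a, b`
  obtain ⟨φ, hφN, hφ⟩ := R222_phi hF h2 hw hK c0 c1 a b h00 h01 h10 h11 hdec
  have hφX : φ ∈ X := R222_mem hF hX φ hφN
  have hε : ∀ l : K, l * l = l ∨ l * l = l + 1 := by
    intro l
    rcases hK l with rfl | rfl | rfl | rfl
    · left; simp
    · left; simp
    · right; exact hw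
    · right; linear_combination hw + w * h2
  have hφ1 : ∀ v, ∃ k : K, φ v = v + g (k • x₀) := by
    intro v
    rcases hε (c0 v) with e0 | e0 <;> rcases hε (c1 v) with e1 | e1
    · exact ⟨0, by rw [hφ, e0, e1, hg0, add_zero]; exact (hdec v).symm⟩
    · exact ⟨w, by rw [hφ, e0, e1, hgw]; linear_combination (norm := module) (-1 : K) • hdec v⟩
    · exact ⟨1, by rw [hφ, e0, e1, hg1]; linear_combination (norm := module) (-1 : K) • hdec v⟩
    · exact ⟨w + 1, by
        rw [hφ, e0, e1, hgw1]; linear_combination (norm := module) (-1 : K) • hdec v⟩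
  have hφa : φ a = a := by rw [hφ, h00, h10]; simp
  have hφb : φ b = b := by rw [hφ, h01, h11]; simp
  have hφ3 : ∀ k : K, φ (g (k • x₀)) = g (k • x₀) := by
    intro k
    rcases hK k with rfl | rfl | rfl | rfl
    · rw [hg0, map_zero]
    · rw [hg1, hφa]
    · rw [hgw, hφb]
    · rw [hgw1, map_add, hφa, hφb]
  have hφW := NT φ hφX hφ1 hφ3
  have h5 : φ (w • a) = w • a + a := by
    rw [hφ, map_smul, map_smul, h00, h10, smul_eq_mul, smul_eq_mul, mul_one, mul_zero, hw]
    module
  have h6 : φ (W (w • a)) = W (w • a) + b := by rw [hφW, h5, map_add, hWa]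
  have h7 : c0 (W (w • a)) * c0 (W (w • a)) = c0 (W (w • a)) := by
    have := congrArg c0 h6
    rw [hφ] at this
    simpa [h00, h01] using this
  have h8 : c1 (W (w • a)) * c1 (W (w • a)) = c1 (W (w • a)) + 1 := by
    have := congrArg c1 h6
    rw [hφ] at this
    simpa [h10, h11] using this
  obtain ⟨k1, hp⟩ : ∃ k1 : K, W (w • a) = w • b + g (k1 • x₀) := by
    have hd := hdec (W (w • a))
    have hl : c0 (W (w • a)) = 0 ∨ c0 (W (w • a)) = 1 := by
      have : c0 (W (w • a)) * (c0 (W (w • a)) - 1) = 0 := by linear_combination h7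
      rcases mul_eq_zero.1 this with h | h
      · exact Or.inl h
      · exact Or.inr (sub_eq_zero.1 h)
    have hmm : c1 (W (w • a)) = w ∨ c1 (W (w • a)) = w + 1 := by
      rcases hK (c1 (W (w • a))) with h | h | h | h
      · rw [h] at h8; simp at h8
      · rw [h] at h8
        exfalso
        have : (1 : K) = 0 := by linear_combination h8 + h2
        exact one_ne_zero this
      · exact Or.inl h
      · exact Or.inr h
    rcases hl with hl | hl <;> rcases hmm with hmm | hmm <;> rw [hl, hmm] at hd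
    · exact ⟨0, by rw [hg0, hd]; module⟩
    · exact ⟨w, by rw [hgw, hd]; module⟩
    · exact ⟨1, by rw [hg1, hd]; module⟩
    · exact ⟨w + 1, by rw [hgw1, hd]; module⟩
  have hp' : W (w • b) = w • a + w • b + g ((k1 + w * k1) • x₀) := by
    have h9 := hWW (w • a)
    rw [hp, map_add, hWg] at h9
    rw [hgadd]
    have h10' := hV2 (g ((w * k1) • x₀))
    linear_combination (norm := module) h9 - h10'
  have hWka : ∀ k : K, ∃ j : K, W (k • a) = k • b + g (j • x₀) := by
    intro k
    rcases hK k with h | h | h | h <;> rw [h]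
    · exact ⟨0, by simp⟩
    · exact ⟨0, by simp [hWa]⟩
    · exact ⟨k1, hp⟩
    · exact ⟨k1, by rw [add_smul, map_add, hp, one_smul, hWa]; module⟩
  have hWkb : ∀ k : K, ∃ j : K, W (k • b) = k • (a + b) + g (j • x₀) := by
    intro k
    rcases hK k with h | h | h | h <;> rw [h]
    · exact ⟨0, by simp⟩
    · exact ⟨0, by simp [hWb]⟩
    · exact ⟨k1 + w * k1, by rw [hp']; module⟩
    · exact ⟨k1 + w * k1, by rw [add_smul, map_add, hp', one_smul, hWb]; module⟩
  -- the element `y`
  obtain ⟨y, hyX, hy⟩ : ∃ y ∈ X, ∀ v, y v = W ((c0 v + c1 v) • a + c0 v • b) := by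
    refine ⟨W * ktv F c0 b h01 * ktv F c1 a h10,
      X.mul_mem (X.mul_mem hWX (ktv_mem hX _ _ _)) (ktv_mem hX _ _ _), fun v => ?_⟩
    rw [LinearEquiv.mul_apply, LinearEquiv.mul_apply, ktv_apply, ktv_apply]
    congr 1
    rw [map_add, map_smul, h00, smul_eq_mul, mul_one]
    have h1 := hdec v
    have h3 := hV2 (c1 v • b)
    linear_combination (norm := module) h1 + h3
  have hy1 : ∀ v, ∃ k : K, y v = v + g (k • x₀) := by
    intro v
    obtain ⟨j, hj⟩ := hWka (c0 v + c1 v)
    obtain ⟨j', hj'⟩ := hWkb (c0 v)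
    refine ⟨j + j', ?_⟩
    rw [hy, map_add, hj, hj', hgadd]
    have h1 := hdec v
    have h3 := hV2 (c0 v • b)
    linear_combination (norm := module) (-1 : K) • h1 + h3
  have hya : y a = a := by
    rw [hy, h00, h10, add_zero, one_smul, one_smul, map_add, hWa, hWb]
    have h3 := hV2 b
    linear_combination (norm := module) h3
  have hyb : y b = b := by
    rw [hy, h01, h11, zero_add, one_smul, zero_smul, add_zero, hWa]
  have hy3 : ∀ k : K, y (g (k • x₀)) = g (k • x₀) := by
    intro k
    rcases hK k with rfl | rfl | rfl | rfl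
    · rw [hg0, map_zero]
    · rw [hg1, hya]
    · rw [hgw, hyb]
    · rw [hgw1, map_add, hya, hyb]
  have hyW := NT y hyX hy1 hy3
  have hk1 : k1 = 0 := by
    have h9 := hyW (w • a)
    have e1 : y (w • a) = W (w • a) + W (w • b) := by
      rw [hy, map_smul, map_smul, h00, h10, smul_eq_mul, smul_eq_mul, mul_one, mul_zero, add_zero,
        map_add]
    have e2 : y (w • b) = W (w • a) := by
      rw [hy, map_smul, map_smul, h01, h11, smul_eq_mul, smul_eq_mul, mul_one, mul_zero, zero_add,
        zero_smul, add_zero]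
    rw [e1, hp, map_add y, e2, hy3, hp, hp', map_add W, map_add W, map_add W, map_add W, hp, hp',
      hWg, hWg] at h9
    have hq3 : g ((w * (k1 + w * k1)) • x₀) =
        g ((w * k1) • x₀) + g ((w * k1) • x₀) + g (k1 • x₀) := by
      rw [← hgadd, ← hgadd]
      congr 2
      linear_combination k1 * hw
    have hq2 : g ((w * k1) • x₀) = 0 := by
      linear_combination (norm := module) (-1 : K) • h9 - hq3 - hV2 (w • a) - hV2 (w • b)
        - hV2 (g ((k1 + w * k1) • x₀)) - hV2 (g ((w * k1) • x₀))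
    have h10' : (w * k1) • x₀ = 0 := by simpa using hq2
    rcases smul_eq_zero.1 h10' with h | h
    · exact (mul_eq_zero.1 h).resolve_left hw0
    · exact absurd h hx0
  subst hk1
  rw [hg0, add_zero] at hp
  rw [mul_zero, add_zero, hg0, add_zero] at hp'
  have hWa' : ∀ k : K, W (k • a) = k • b := by
    intro k
    rcases hK k with h | h | h | h <;> rw [h]
    · simp
    · simp [hWa]
    · exact hp
    · rw [add_smul, map_add, hp, one_smul, hWa]; module
  have hWb' : ∀ k : K, W (k • b) = k • (a + b) := by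
    intro k
    rcases hK k with h | h | h | h <;> rw [h]
    · simp
    · simp [hWb]
    · rw [hp']; module
    · rw [add_smul, map_add, hp', one_smul, hWb]; module
  have hWlin : ∀ v, W v = c0 v • b + c1 v • (a + b) := by
    intro v
    have h1 : W (c0 v • a + c1 v • b) = c0 v • b + c1 v • (a + b) := by
      rw [map_add, hWa', hWb']
    rwa [← hdec v] at h1
  -- the last step
  obtain ⟨κ, hκ1, hκw⟩ := R222_kappa hF hw
  obtain ⟨f, hf⟩ : ∃ f : V →ₗ[K] K, f = w • c0 + c1 := ⟨_, rfl⟩
  obtain ⟨e1, he1⟩ : ∃ e1 : V, e1 = a + w • b := ⟨_, rfl⟩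
  have hfv : ∀ v, f v = w * c0 v + c1 v := by intro v; rw [hf]; simp
  have hfe : f e1 = 0 := by
    rw [hfv, he1, map_add, map_add, map_smul, map_smul, h00, h01, h10, h11]
    simp only [smul_eq_mul, mul_zero, mul_one, add_zero, zero_add]
    linear_combination w * h2
  obtain ⟨s, hs⟩ := R222_sq hF h2 f e1 hfe
  have hfW : ∀ v, f (W v) = (w + 1) * f v := by
    intro v
    rw [hfv, hfv, hWlin]
    simp only [map_add, map_smul, h00, h01, h10, h11, smul_eq_mul, mul_zero, mul_one, add_zero,
      zero_add]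
    linear_combination (-c0 v) * hw - (w * c0 v) * h2
  have hWe : ∀ k : K, W (k • e1) = (k * w) • e1 := by
    intro k
    rw [hWlin, he1]
    simp only [map_add, map_smul, h00, h01, h10, h11, smul_eq_mul, mul_zero, mul_one, add_zero,
      zero_add]
    linear_combination (norm := module) ((-k) * hw) • b
  have hsW : ∀ v, s (W v) = W (s v) := by
    intro v
    rw [hs, hs, map_add, hWe, hfW]
    congr 2
    linear_combination (f v * f v) * hw + (f v * f v) * (w + 1) * h2
  have hew : ∀ u, (g⁻¹ * s * g) (w • u) = w • (g⁻¹ * s * g) u := by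
    intro u
    change g.symm (s (g (w • u))) = w • g.symm (s (g u))
    have h1 : g (w • u) = W (g u) := by rw [hW, LinearEquiv.symm_apply_apply]
    rw [h1, hsW, hW, LinearEquiv.symm_apply_apply]
  have heX : g⁻¹ * s * g ∈ X := by
    apply R222_mem hF hX
    intro k
    refine ⟨k, fun v => ?_⟩
    rcases hK k with h | h | h | h <;> rw [h]
    · simp
    · simp
    · exact hew v
    · rw [add_smul, map_add, hew, one_smul, add_smul, one_smul]
  have hsX : s ∈ X := by
    have : s = g * (g⁻¹ * s * g) * g⁻¹ := by group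
    rw [this]
    exact X.mul_mem (X.mul_mem hg heX) (X.inv_mem hg)
  apply hno
  refine ⟨κ, f, e1, hfe, ?_, ?_, ?_, ?_⟩
  · intro h; rw [h] at hκw; simp at hκw
  · intro h
    have := hfv b
    rw [h, h01, h11] at this
    simp at this
  · intro h
    have := congrArg c0 h
    rw [he1, map_add, map_smul, h00, h01] at this
    simp at this
  · have he : atv κ f e1 hfe = s * ktv F f e1 hfe := by
      ext v
      rw [LinearEquiv.mul_apply, atv_apply, ktv_apply, hs, map_add, map_smul, hfe, smul_eq_mul,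
        mul_zero, add_zero]
      rcases hK (f v) with h | h | h | h <;> rw [h]
      · simp
      · rw [hκ1]
        linear_combination (norm := module) (-h2) • e1
      · rw [hκw, hw]
        linear_combination (norm := module) ((-w) * h2) • e1
      · rw [map_add, hκw, hκ1]
        linear_combination (norm := module) ((-1 : K) * hw - (2 * w + 1) * h2) • e1
    rw [he]
    exact X.mul_mem hsX (ktv_mem hX _ _ _)

end Cfsg.Agent.Lib.Helper97.C3
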