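import Cfsg.Agent.Lib.Helper97.C3.Basic

/-!
# Ladder C3, rung R2Q3: `dim_K V = 2`, `r = 2`, `q ≥ 3`
-/

set_option autoImplicit false

namespace Cfsg.Agent.Lib.Helper97.C3

open Module

variable {F K V : Type*} [Field F] [Field K] [Algebra F K] [AddCommGroup V]
  [Module F V] [Module K V] [IsScalarTower F K V]

private lemma R2Q3_inv_apply {e : V ≃ₗ[F] V} {v w : V} (h : e w = v) : e⁻¹ v = w := by
  rw [← h]
  exact e.symm_apply_apply w

private lemma R2Q3_apply_inv (e : V ≃ₗ[F] V) (v : V) : e (e⁻¹ v) = v :=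
  e.apply_symm_apply v

/-- decomposition of `K` over `F` in degree two -/
private lemma R2Q3_decompK [FiniteDimensional F K] (hr : finrank F K = 2) {θ : K}
    (hθ : ∀ c : F, algebraMap F K c ≠ θ) (l : K) : ∃ c d : F, l = c • (1 : K) + d • θ := by
  let Φ : F × F →ₗ[F] K :=
    LinearMap.coprod (LinearMap.toSpanSingleton F K 1) (LinearMap.toSpanSingleton F K θ)
  have hΦ : ∀ p : F × F, Φ p = p.1 • (1 : K) + p.2 • θ := fun p => by
    simp [Φ, LinearMap.coprod_apply, LinearMap.toSpanSingleton_apply]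
  have hinj : Function.Injective Φ := by
    rw [← LinearMap.ker_eq_bot, LinearMap.ker_eq_bot']
    rintro ⟨c, d⟩ h
    rw [hΦ] at h
    simp only at h
    have hd : d = 0 := by
      by_contra hd
      apply hθ (-(c / d))
      have h2 : d • θ = -(c • (1 : K)) := eq_neg_of_add_eq_zero_right h
      have h3 : θ = d⁻¹ • (d • θ) := by rw [smul_smul, inv_mul_cancel₀ hd, one_smul]
      rw [h3, h2, Algebra.algebraMap_eq_smul_one, smul_neg, smul_smul, neg_smul]
      congr 2
      field_simp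
    subst hd
    rw [zero_smul, add_zero] at h
    have hc : c = 0 := by
      rcases smul_eq_zero.1 h with h | h
      · exact h
      · exact absurd h one_ne_zero
    rw [hc]; rfl
  have hsurj : Function.Surjective Φ := by
    apply (LinearMap.injective_iff_surjective_of_finrank_eq_finrank ?_).1 hinj
    rw [hr]; simp
  obtain ⟨p, hp⟩ := hsurj l
  exact ⟨p.1, p.2, by rw [← hp, hΦ]⟩

/-- decomposition of `V` over `K` in dimension two -/
private lemma R2Q3_decompV [FiniteDimensional K V] (hm : finrank K V = 2) {x vb : V} (hx : x ≠ 0)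
    {fx : V →ₗ[K] K} (hfx : fx x = 0) (hfv : fx vb = 1) (v : V) :
    ∃ α : K, v = α • x + fx v • vb := by
  let Φ : K × K →ₗ[K] V :=
    LinearMap.coprod (LinearMap.toSpanSingleton K V x) (LinearMap.toSpanSingleton K V vb)
  have hΦ : ∀ p : K × K, Φ p = p.1 • x + p.2 • vb := fun p => by
    simp [Φ, LinearMap.coprod_apply, LinearMap.toSpanSingleton_apply]
  have hinj : Function.Injective Φ := by
    rw [← LinearMap.ker_eq_bot, LinearMap.ker_eq_bot']
    rintro ⟨c, d⟩ h
    rw [hΦ] at h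
    simp only at h
    have hd : d = 0 := by
      have := congrArg fx h
      simpa [hfx, hfv] using this
    subst hd
    rw [zero_smul, add_zero] at h
    have hc : c = 0 := by
      rcases smul_eq_zero.1 h with h | h
      · exact h
      · exact absurd h hx
    rw [hc]; rfl
  have hsurj : Function.Surjective Φ := by
    apply (LinearMap.injective_iff_surjective_of_finrank_eq_finrank ?_).1 hinj
    rw [hm]; simp
  obtain ⟨p, hp⟩ := hsurj v
  refine ⟨p.1, ?_⟩
  have h2 : fx v = p.2 := by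
    rw [← hp, hΦ]; simp [hfx, hfv]
  rw [h2, ← hΦ, hp]

/-- (NT) -/
private lemma R2Q3_NT [FiniteDimensional F K]
    (hr : finrank F K = 2) (X : Subgroup (V ≃ₗ[F] V)) (hX : Big K X) (hno : ¬ HasATV K X)
    {x vb : V} (hx : x ≠ 0) {fx : V →ₗ[K] K} (hfx : fx x = 0) (hfv : fx vb = 1)
    (ψ : K →ₗ[F] K) (e : V ≃ₗ[F] V) (he : e ∈ X) (hev : ∀ v, e v = v + ψ (fx v) • x) (l : K) :
    ψ l = ψ 1 * l := by
  by_contra hne
  set ψ' : K →ₗ[F] K := ψ - LinearMap.mulLeft F (ψ 1) with hψ'
  have hψ'a : ∀ k, ψ' k = ψ k - ψ 1 * k := fun k => rfl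
  have hw : ψ' l ≠ 0 := by
    rw [hψ'a]; exact sub_ne_zero.2 hne
  have h1 : ψ' 1 = 0 := by rw [hψ'a, mul_one, sub_self]
  have hθ : ∀ c : F, algebraMap F K c ≠ l := by
    intro c hc
    apply hw
    rw [← hc, Algebra.algebraMap_eq_smul_one, map_smul, h1, smul_zero]
  obtain ⟨κ0, hκ0⟩ := exists_kappa (F := F) hw
  have hκ : ∀ k, ψ' k = (κ0 (ψ' k)) • ψ' l := by
    intro k
    obtain ⟨c, d, rfl⟩ := R2Q3_decompK hr hθ k
    rw [map_add, map_smul, map_smul, h1, smul_zero, zero_add, map_smul, hκ0, smul_eq_mul, mul_one]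
  have hwx : fx (ψ' l • x) = 0 := by rw [map_smul, hfx, smul_zero]
  have h0 : (ψ 1 • fx) x = 0 := by simp [hfx]
  apply hno
  refine ⟨κ0 ∘ₗ ψ', fx, ψ' l • x, hwx, ?_, ?_, smul_ne_zero hw hx, ?_⟩
  · intro h
    have := LinearMap.congr_fun h l
    simp [hκ0] at this
  · intro h
    rw [h] at hfv
    simp at hfv
  · have : atv (κ0 ∘ₗ ψ') fx (ψ' l • x) hwx = e * (ktv F (ψ 1 • fx) x h0)⁻¹ := by
      apply LinearEquiv.ext
      intro v
      rw [atv_apply, LinearEquiv.mul_apply, ktv_inv_apply, hev]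
      simp only [LinearMap.smul_apply, smul_eq_mul, map_sub, map_smul, hfx, mul_zero, sub_zero,
        LinearMap.comp_apply]
      rw [← smul_assoc, ← hκ, hψ'a, sub_smul]
      abel
    rw [this]
    exact X.mul_mem he (X.inv_mem (ktv_mem hX _ _ h0))

private lemma R2Q3_star [FiniteDimensional F K] [FiniteDimensional K V]
    (hr : finrank F K = 2) (hm : finrank K V = 2) (X : Subgroup (V ≃ₗ[F] V)) (hX : Big K X)
    (hno : ¬ HasATV K X) {x : V} (hx : x ≠ 0) {ω : K →ₗ[F] F} (ht : TAct X x ω) {a0 : K}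
    (ha0 : a0 ≠ 0) (hωa : ω a0 = 0) (c : F) (μ l : K) :
    μ * l + (c * ω (μ * l)) • a0 = (μ + algebraMap F K (c * ω (μ * a0))) * (l + (c * ω l) • a0) := by
  obtain ⟨fx, vb, hfx, hfv⟩ := exists_fun_ne (K := K) (by omega : 2 ≤ finrank K V) x
  obtain ⟨t, htX, ht'⟩ := ht (c • a0) (by rw [map_smul, hωa, smul_zero])
  set τ : K →ₗ[F] K := LinearMap.id + (c • ω).smulRight a0 with hτ
  have hτa : ∀ k, τ k = k + (c * ω k) • a0 := fun k => rfl
  have htP : ∀ k : K, t (k • x) = τ k • x := by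
    intro k
    rw [ht', hτa, add_smul, smul_assoc, smul_assoc, smul_smul, mul_comm]
  have htinvP : ∀ k : K, t⁻¹ (k • x) = (k - (c * ω k) • a0) • x := by
    intro k
    apply R2Q3_inv_apply
    rw [htP, hτa]
    congr 1
    simp [hωa]
  set η : K →ₗ[F] K := (fx.restrictScalars F) ∘ₗ ((t⁻¹ : V ≃ₗ[F] V) : V →ₗ[F] V) ∘ₗ
    (LinearMap.toSpanSingleton K V vb).restrictScalars F with hη
  have hηa : ∀ k, η k = fx (t⁻¹ (k • vb)) := fun k => rfl
  have hfxt : ∀ v, fx (t⁻¹ v) = η (fx v) := by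
    intro v
    obtain ⟨α, hα⟩ := R2Q3_decompV hm hx hfx hfv v
    conv_lhs => rw [hα]
    rw [map_add, htinvP, map_add, map_smul, hfx, smul_zero, zero_add, hηa]
  have hηinj : Function.Injective η := by
    rw [← LinearMap.ker_eq_bot, LinearMap.ker_eq_bot']
    intro k hk
    rw [hηa] at hk
    obtain ⟨α, hα⟩ := R2Q3_decompV hm hx hfx hfv (t⁻¹ (k • vb))
    rw [hk, zero_smul, add_zero] at hα
    have h2 : k • vb = τ α • x := by
      rw [← htP, ← hα, R2Q3_apply_inv]
    have h3 := congrArg fx h2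
    simpa [hfx, hfv] using h3
  have hηsurj : Function.Surjective η := LinearMap.injective_iff_surjective.1 hηinj
  have hτinj : ∀ k, τ k = 0 → k = 0 := by
    intro k hk
    have h2 := congrArg ω hk
    rw [hτa, map_add, map_smul, hωa, smul_zero, add_zero, map_zero] at h2
    rw [hτa, h2, mul_zero, zero_smul, add_zero] at hk
    exact hk
  have hNT : ∀ ν k : K, τ (ν * η k) = τ (ν * η 1) * k := by
    intro ν k
    have h0 : (ν • fx) x = 0 := by simp [hfx]
    have := R2Q3_NT hr X hX hno hx hfx hfv (τ ∘ₗ LinearMap.mulLeft F ν ∘ₗ η)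
      (t * ktv F (ν • fx) x h0 * t⁻¹)
      (X.mul_mem (X.mul_mem htX (ktv_mem hX _ _ h0)) (X.inv_mem htX))
      (by
        intro v
        rw [LinearEquiv.mul_apply, LinearEquiv.mul_apply, ktv_apply, map_add, R2Q3_apply_inv,
          LinearMap.smul_apply, smul_eq_mul, htP, hfxt]
        rfl) k
    exact this
  have hk1 : τ (1 * η 1) ≠ 0 := by
    intro h
    have h2 := hτinj _ h
    rw [one_mul] at h2
    have h3 : (1 : K) = 0 := hηinj (by rw [h2, map_zero])
    exact one_ne_zero h3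
  have hmain : ∀ l' : K, τ (1 * η 1) * τ (μ * l') = τ (μ * η 1) * τ l' := by
    intro l'
    obtain ⟨l0, rfl⟩ := hηsurj l'
    have e1 := hNT μ l0
    have e2 := hNT 1 l0
    rw [one_mul] at e2
    rw [e1, e2, one_mul]
    ring
  have hkμ : τ (μ * η 1) = τ (1 * η 1) * (μ + algebraMap F K (c * ω (μ * a0))) := by
    have h2 := hmain a0
    rw [hτa (μ * a0), hτa a0, hωa, mul_zero, zero_smul, add_zero, Algebra.smul_def] at h2
    apply mul_right_cancel₀ ha0
    rw [← h2]
    ring
  have h3 := hmain l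
  rw [hkμ, mul_assoc] at h3
  have h4 := mul_left_cancel₀ hk1 h3
  rw [hτa, hτa] at h4
  exact h4

theorem hasATV_of_tact_two [Fintype F] [FiniteDimensional F K] [FiniteDimensional K V]
    (hr : finrank F K = 2) (hm : finrank K V = 2) (hq : 3 ≤ Fintype.card F)
    (X : Subgroup (V ≃ₗ[F] V)) (hX : Big K X) {x : V} (hx : x ≠ 0) {ω : K →ₗ[F] F} (hω : ω ≠ 0)
    (ht : TAct X x ω) : HasATV K X := by
  classical
  by_contra hno
  -- a nonzero element of the kernel
  obtain ⟨a0, ha0, hωa⟩ : ∃ a0 : K, a0 ≠ 0 ∧ ω a0 = 0 := by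
    have hrank : finrank F (LinearMap.range ω) + finrank F (LinearMap.ker ω) = finrank F K :=
      LinearMap.finrank_range_add_finrank_ker ω
    have hrange : finrank F (LinearMap.range ω) ≤ 1 := by
      have := Submodule.finrank_le (LinearMap.range ω)
      simpa using this
    have hkerbot : LinearMap.ker ω ≠ ⊥ := by
      intro h
      rw [h, finrank_bot] at hrank
      omega
    obtain ⟨a0, h1, h2⟩ := (Submodule.ne_bot_iff _).1 hkerbot
    exact ⟨a0, h2, LinearMap.mem_ker.1 h1⟩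
  obtain ⟨l, hl⟩ : ∃ l, ω l ≠ 0 := by
    by_contra hcon
    push Not at hcon
    exact hω (LinearMap.ext hcon)
  obtain ⟨c2, hc2⟩ : ∃ c2 : F, c2 ∉ ({0, 1} : Finset F) := by
    by_contra hcon
    push Not at hcon
    have h1 : (Finset.univ : Finset F) ⊆ {0, 1} := fun y _ => hcon y
    have h2 := Finset.card_le_card h1
    have h3 : ({0, 1} : Finset F).card ≤ 2 := Finset.card_le_two
    rw [Finset.card_univ] at h2
    omega
  have hc20 : c2 ≠ 0 := fun h => hc2 (by simp [h])
  have hc21 : c2 ≠ 1 := fun h => hc2 (by simp [h])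
  set μ := l * a0⁻¹ with hμ
  have hμa : μ * a0 = l := by rw [hμ, mul_assoc, inv_mul_cancel₀ ha0, mul_one]
  have s1 := R2Q3_star hr hm X hX hno hx ht ha0 hωa 1 μ l
  have s2 := R2Q3_star hr hm X hX hno hx ht ha0 hωa c2 μ l
  rw [hμa] at s1 s2
  simp only [Algebra.smul_def, map_mul, one_mul] at s1 s2
  have h5 : algebraMap F K c2 * (algebraMap F K c2 - 1) * algebraMap F K (ω l) * algebraMap F K (ω l)
      * a0 = 0 := by
    linear_combination algebraMap F K c2 * s1 - s2
  have hinj := (algebraMap F K).injective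
  have hA : ∀ y : F, y ≠ 0 → algebraMap F K y ≠ 0 := fun y hy h => hy (hinj (by rw [h, map_zero]))
  have hA1 : algebraMap F K c2 - 1 ≠ 0 := by
    intro h
    apply hc21
    apply hinj
    rw [map_one]
    exact sub_eq_zero.1 h
  exact mul_ne_zero (mul_ne_zero (mul_ne_zero (mul_ne_zero (hA _ hc20) hA1) (hA _ hl)) (hA _ hl)) ha0 h5

end Cfsg.Agent.Lib.Helper97.C3
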