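import Cfsg.Agent.Lib.Helper97.C3.NORM

/-!
# Ladder C3, rung R3: `dim_K V ≥ 2`, `r ≥ 3`: a triple commutator is an adapted transvection
-/

set_option autoImplicit false

namespace Cfsg.Agent.Lib.Helper97.C3

open Module

variable {F K V : Type*} [Field F] [Field K] [Algebra F K] [AddCommGroup V]
  [Module F V] [Module K V] [IsScalarTower F K V]

private lemma R3_inv_apply {e : V ≃ₗ[F] V} {v w : V} (h : e w = v) : e⁻¹ v = w := by
  rw [← h]
  exact e.symm_apply_apply w

private lemma R3_apply_inv (e : V ≃ₗ[F] V) (v : V) : e (e⁻¹ v) = v :=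
  e.apply_symm_apply v

/-- `y` moves every vector by an element of `P`. -/
private def R3_InZ (P : Submodule F V) (y : V ≃ₗ[F] V) : Prop := ∀ v, y v - v ∈ P

private lemma R3_InZ_mul {P : Submodule F V} {y y' : V ≃ₗ[F] V} (h : R3_InZ P y) (h' : R3_InZ P y') :
    R3_InZ P (y * y') := by
  intro v
  have : (y * y') v - v = (y (y' v) - y' v) + (y' v - v) := by
    rw [LinearEquiv.mul_apply]; abel
  rw [this]
  exact P.add_mem (h _) (h' _)

private lemma R3_InZ_inv {P : Submodule F V} {y : V ≃ₗ[F] V} (h : R3_InZ P y) : R3_InZ P y⁻¹ := by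
  intro v
  have : y⁻¹ v - v = -(y (y⁻¹ v) - y⁻¹ v) := by
    rw [R3_apply_inv]; abel
  rw [this]
  exact P.neg_mem (h _)

private lemma R3_InZ_conj {P : Submodule F V} {y t : V ≃ₗ[F] V} (h : R3_InZ P y)
    (ht : ∀ p ∈ P, t p ∈ P) : R3_InZ P (t * y * t⁻¹) := by
  intro v
  have : (t * y * t⁻¹) v - v = t (y (t⁻¹ v) - t⁻¹ v) := by
    rw [LinearEquiv.mul_apply, LinearEquiv.mul_apply, map_sub, R3_apply_inv]
  rw [this]
  exact ht _ (h _)

private theorem R3_aux [FiniteDimensional F K] [FiniteDimensional K V]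
    (hnorm : ∃ α : K, Algebra.norm F α = 1 ∧ ∀ c : F, algebraMap F K c ≠ α)
    (hr : (finrank F K).Prime) (hr3 : 3 ≤ finrank F K) (hm : 2 ≤ finrank K V)
    (X : Subgroup (V ≃ₗ[F] V)) (hX : Big K X) {x : V} (hx : x ≠ 0) {ω : K →ₗ[F] F} (hω : ω ≠ 0)
    (ht : TAct X x ω) : HasATV K X := by
  obtain ⟨al, hal1, halF⟩ := hnorm
  have hal0 : al ≠ 0 := by
    rintro rfl
    exact halF 0 (map_zero _)
  obtain ⟨fx, y0, hfx, hfy⟩ := exists_fun_ne (K := K) hm x
  obtain ⟨f1, -, hf1⟩ : ∃ f : V →ₗ[K] K, f 0 = 0 ∧ f x = 1 := by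
    apply exists_fun_one
    simpa using hx
  -- the dilatation
  have hc0 : 1 + ((al - 1) • f1) x ≠ 0 := by
    simp [hf1, hal0]
  have hcX : kdil F ((al - 1) • f1) x hc0 ∈ X := by
    apply kdil_mem hX
    simp [hf1, hal1]
  set c := kdil F ((al - 1) • f1) x hc0 with hcdef
  have hc : ∀ l : K, c (l • x) = (al * l) • x := by
    intro l
    rw [hcdef, kdil_apply]
    simp only [LinearMap.smul_apply, map_smul, hf1, smul_eq_mul, mul_one]
    rw [← add_smul]
    congr 1
    ring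
  have hcZ : R3_InZ (kpt F K x) c := by
    intro v
    rw [hcdef, kdil_apply, add_sub_cancel_left]
    exact smul_mem_kpt _ _
  have hcinv : ∀ l : K, c⁻¹ (l • x) = (al⁻¹ * l) • x := by
    intro l
    apply R3_inv_apply
    rw [hc, ← mul_assoc, mul_inv_cancel₀ hal0, one_mul]
  -- the element a
  have hkertop : LinearMap.ker ω ≠ ⊤ := by
    intro h
    exact hω (LinearMap.ker_eq_top.1 h)
  have hrank : finrank F (LinearMap.ker ω) + finrank F (LinearMap.range ω) = finrank F K := by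
    rw [add_comm]; exact LinearMap.finrank_range_add_finrank_ker ω
  have hrange : finrank F (LinearMap.range ω) ≤ 1 := by
    have := Submodule.finrank_le (LinearMap.range ω)
    simpa using this
  have hkerbot : LinearMap.ker ω ≠ ⊥ := by
    intro h
    rw [h, finrank_bot] at hrank
    omega
  obtain ⟨a, ha, haa⟩ : ∃ a : K, ω a = 0 ∧ ω (al * a) ≠ 0 := by
    by_contra hcon
    push Not at hcon
    obtain ⟨c', hc'⟩ := stab_eq_bot hr (LinearMap.ker ω) hkerbot hkertop al
      (fun w hw => LinearMap.mem_ker.2 (hcon w (LinearMap.mem_ker.1 hw)))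
    exact halF c' hc'
  -- the element b
  obtain ⟨b, hb0, hb, hbb⟩ : ∃ b : K, b ≠ 0 ∧ ω b = 0 ∧ ω (al⁻¹ * b) = 0 := by
    let Φ : K →ₗ[F] F × F := LinearMap.prod ω (ω ∘ₗ LinearMap.mulLeft F al⁻¹)
    have h1 : finrank F (LinearMap.range Φ) + finrank F (LinearMap.ker Φ) = finrank F K :=
      LinearMap.finrank_range_add_finrank_ker Φ
    have h2 : finrank F (LinearMap.range Φ) ≤ 2 := by
      have := Submodule.finrank_le (LinearMap.range Φ)
      simpa using this
    have h3 : LinearMap.ker Φ ≠ ⊥ := by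
      intro h
      rw [h, finrank_bot] at h1
      omega
    obtain ⟨b, hb, hb0⟩ := (Submodule.ne_bot_iff _).1 h3
    have hb' : Φ b = 0 := LinearMap.mem_ker.1 hb
    have hb1 : ω b = 0 := congrArg Prod.fst hb'
    have hb2 : ω (al⁻¹ * b) = 0 := congrArg Prod.snd hb'
    exact ⟨b, hb0, hb1, hb2⟩
  obtain ⟨ta, htaX, hta'⟩ := ht a ha
  obtain ⟨tb, htbX, htb'⟩ := ht b hb
  have hta : ∀ l : K, ta (l • x) = (l + ω l • a) • x := by
    intro l; rw [hta', add_smul, smul_assoc]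
  have htb : ∀ l : K, tb (l • x) = (l + ω l • b) • x := by
    intro l; rw [htb', add_smul, smul_assoc]
  have htainv : ∀ l : K, ta⁻¹ (l • x) = (l - ω l • a) • x := by
    intro l
    apply R3_inv_apply
    rw [hta]
    congr 1
    simp [ha]
  have htbinv : ∀ l : K, tb⁻¹ (l • x) = (l - ω l • b) • x := by
    intro l
    apply R3_inv_apply
    rw [htb]
    congr 1
    simp [hb]
  have htaP : ∀ p ∈ kpt F K x, ta p ∈ kpt F K x := by
    intro p hp
    obtain ⟨l, rfl⟩ := mem_kpt.1 hp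
    rw [hta]; exact smul_mem_kpt _ _
  have htbP : ∀ p ∈ kpt F K x, tb p ∈ kpt F K x := by
    intro p hp
    obtain ⟨l, rfl⟩ := mem_kpt.1 hp
    rw [htb]; exact smul_mem_kpt _ _
  set z := c * (ta * c⁻¹ * ta⁻¹) with hz
  have hzX : z ∈ X := X.mul_mem hcX (X.mul_mem (X.mul_mem htaX (X.inv_mem hcX)) (X.inv_mem htaX))
  have hzZ : R3_InZ (kpt F K x) z := R3_InZ_mul hcZ (R3_InZ_conj (R3_InZ_inv hcZ) htaP)
  have hzinv : z⁻¹ = ta * c * ta⁻¹ * c⁻¹ := by rw [hz]; group
  have hmulinv : ∀ k : K, al * (al⁻¹ * k) = k := by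
    intro k; rw [← mul_assoc, mul_inv_cancel₀ hal0, one_mul]
  have hinvmul : ∀ k : K, al⁻¹ * (al * k) = k := by
    intro k; rw [← mul_assoc, inv_mul_cancel₀ hal0, one_mul]
  -- the action of `z⁻¹` on `P`
  have hzinvP : ∀ l : K, z⁻¹ (l • x) =
      (l - ω (al⁻¹ * l) • (al * a) + (ω l - ω (al⁻¹ * l) * ω (al * a)) • a) • x := by
    intro l
    rw [hzinv]
    simp only [LinearEquiv.mul_apply]
    rw [hcinv, htainv, hc, hta]
    congr 1
    have e1 : al * (al⁻¹ * l - ω (al⁻¹ * l) • a) = l - ω (al⁻¹ * l) • (al * a) := by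
      rw [mul_sub, mul_smul_comm, hmulinv]
    rw [e1, map_sub, map_smul, smul_eq_mul]
  have hzP : ∀ (l : K), z ((l - ω (al⁻¹ * l) • (al * a) + (ω l - ω (al⁻¹ * l) * ω (al * a)) • a
        - (ω l - ω (al⁻¹ * l) * ω (al * a)) • b) • x) =
      (l - (ω l - ω (al⁻¹ * l) * ω (al * a)) • b) • x := by
    intro l
    rw [hz]
    simp only [LinearEquiv.mul_apply]
    rw [htainv, hcinv, hta, hc]
    congr 1
    simp only [map_sub, map_add, map_smul, smul_eq_mul, ha, hb, mul_zero, add_zero, sub_zero,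
      mul_sub, mul_add, mul_smul_comm, hinvmul, hmulinv, hbb]
    module
  set z2 := tb * z * tb⁻¹ * z⁻¹ with hz2
  have hz2X : z2 ∈ X :=
    X.mul_mem (X.mul_mem (X.mul_mem htbX hzX) (X.inv_mem htbX)) (X.inv_mem hzX)
  have hz2Z : R3_InZ (kpt F K x) z2 := R3_InZ_mul (R3_InZ_conj hzZ htbP) (R3_InZ_inv hzZ)
  have hz2P : ∀ l : K, z2 (l • x) = (l + (ω (al * a) * ω (al⁻¹ * l)) • b) • x := by
    intro l
    rw [hz2]
    simp only [LinearEquiv.mul_apply]
    rw [hzinvP, htbinv]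
    have e1 : (l - ω (al⁻¹ * l) • (al * a) + (ω l - ω (al⁻¹ * l) * ω (al * a)) • a -
        ω (l - ω (al⁻¹ * l) • (al * a) + (ω l - ω (al⁻¹ * l) * ω (al * a)) • a) • b) =
        l - ω (al⁻¹ * l) • (al * a) + (ω l - ω (al⁻¹ * l) * ω (al * a)) • a
          - (ω l - ω (al⁻¹ * l) * ω (al * a)) • b := by
      simp only [map_sub, map_add, map_smul, smul_eq_mul, ha, mul_zero, add_zero]
    rw [e1, hzP, htb]
    congr 1
    simp only [map_sub, map_smul, smul_eq_mul, hb, mul_zero, sub_zero]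
    module
  -- the final commutator
  set u := ktv F fx x hfx with hu
  have huX : u ∈ X := ktv_mem hX fx x hfx
  have hfxP : ∀ p ∈ kpt F K x, fx p = 0 := by
    intro p hp
    obtain ⟨l, rfl⟩ := mem_kpt.1 hp
    rw [map_smul, hfx, smul_zero]
  have hs : ∀ v : V, (z2 * u * z2⁻¹ * u⁻¹) v = v + (ω (al * a) * ω (al⁻¹ * fx v)) • (b • x) := by
    intro v
    simp only [LinearEquiv.mul_apply]
    rw [hu, ktv_inv_apply, ← hu]
    set v' := v - fx v • x with hv'
    have h1 : fx v' = fx v := by rw [hv', map_sub, map_smul, hfx, smul_zero, sub_zero]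
    have h2 : fx (z2⁻¹ v') = fx v := by
      have := hfxP _ (R3_InZ_inv hz2Z v')
      rw [map_sub, h1] at this
      exact sub_eq_zero.1 this
    rw [hu, ktv_apply, h2, map_add, R3_apply_inv, hz2P, hv', add_smul, smul_assoc]
    abel
  have hbx : fx (b • x) = 0 := by rw [map_smul, hfx, smul_zero]
  refine ⟨ω (al * a) • (ω ∘ₗ LinearMap.mulLeft F al⁻¹), fx, b • x, hbx, ?_, ?_, ?_, ?_⟩
  · intro h
    obtain ⟨l0, hl0⟩ : ∃ l0, ω l0 ≠ 0 := by
      by_contra hcon
      push Not at hcon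
      exact hω (LinearMap.ext hcon)
    have := LinearMap.congr_fun h (al * l0)
    simp only [LinearMap.smul_apply, LinearMap.comp_apply, LinearMap.mulLeft_apply, hinvmul,
      smul_eq_mul, LinearMap.zero_apply] at this
    rcases mul_eq_zero.1 this with h' | h'
    · exact haa h'
    · exact hl0 h'
  · intro h
    rw [h] at hfy
    simp at hfy
  · exact smul_ne_zero hb0 hx
  · have : atv (ω (al * a) • (ω ∘ₗ LinearMap.mulLeft F al⁻¹)) fx (b • x) hbx
        = z2 * u * z2⁻¹ * u⁻¹ := by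
      apply LinearEquiv.ext
      intro v
      rw [hs, atv_apply]
      simp
    rw [this]
    exact X.mul_mem (X.mul_mem (X.mul_mem hz2X huX) (X.inv_mem hz2X)) (X.inv_mem huX)

theorem hasATV_of_tact_three [Fintype F] [FiniteDimensional F K] [FiniteDimensional K V]
    (hr : (finrank F K).Prime) (hr3 : 3 ≤ finrank F K) (hm : 2 ≤ finrank K V)
    (X : Subgroup (V ≃ₗ[F] V)) (hX : Big K X) {x : V} (hx : x ≠ 0) {ω : K →ₗ[F] F} (hω : ω ≠ 0)
    (ht : TAct X x ω) : HasATV K X :=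
  R3_aux (exists_norm_one hr.two_le) hr hr3 hm X hX hx hω ht

end Cfsg.Agent.Lib.Helper97.C3
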