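import Cfsg.Agent.Lib.Helper97.C3.Basic

/-!
# Ladder C3, rung SPREAD: an automorphism permuting the `K`-points normalises `K`
-/

set_option autoImplicit false

namespace Cfsg.Agent.Lib.Helper97.C3

open Module

variable {F K V : Type*} [Field F] [Field K] [Algebra F K] [AddCommGroup V]
  [Module F V] [Module K V] [IsScalarTower F K V]

theorem nrm_of_points [FiniteDimensional K V] (hm : 2 ≤ finrank K V) (g : V ≃ₗ[F] V)
    (h : ∀ x : V, ∃ y : V, (kpt F K x).map g.toLinearMap = kpt F K y) : Nrm K g := by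
  intro a
  have h1 : ∀ v : V, ∃ c : K, v ≠ 0 → g (a • g.symm v) = c • v := by
    intro v
    by_cases hv : v = 0
    · exact ⟨0, fun h => absurd hv h⟩
    obtain ⟨y, hy⟩ := h (g.symm v)
    have hv1 : v ∈ kpt F K y := by
      rw [← hy]
      exact ⟨g.symm v, self_mem_kpt _, by simp⟩
    have hv2 : g (a • g.symm v) ∈ kpt F K y := by
      rw [← hy]
      exact ⟨a • g.symm v, smul_mem_kpt _ _, rfl⟩
    rw [← kpt_eq_of_mem hv hv1] at hv2
    obtain ⟨c, hc⟩ := mem_kpt.1 hv2
    exact ⟨c, fun _ => hc.symm⟩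
  choose c hc using h1
  have h2 : ∀ v w : V, v ≠ 0 → w ∉ kpt F K v → c v = c w := by
    intro v w hv hw
    have hw0 : w ≠ 0 := by
      rintro rfl
      exact hw (Submodule.zero_mem _)
    have hvw : v + w ≠ 0 := by
      intro h0
      apply hw
      rw [mem_kpt]
      exact ⟨-1, by rw [neg_smul, one_smul]; exact (eq_neg_of_add_eq_zero_right h0).symm⟩
    have e1 : c (v + w) • (v + w) = c v • v + c w • w := by
      rw [← hc _ hvw, ← hc _ hv, ← hc _ hw0, map_add, smul_add, map_add]
    have e2 : (c (v + w) - c v) • v = (c w - c (v + w)) • w := by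
      rw [sub_smul, sub_smul, sub_eq_sub_iff_add_eq_add]
      rw [smul_add] at e1
      rw [add_comm (c w • w), ← e1]
    have e3 : c w = c (v + w) := by
      by_contra hne
      apply hw
      rw [mem_kpt]
      refine ⟨(c w - c (v + w))⁻¹ * (c (v + w) - c v), ?_⟩
      rw [mul_smul, e2, smul_smul, inv_mul_cancel₀ (sub_ne_zero.2 hne), one_smul]
    rw [e3, sub_self, zero_smul] at e2
    have e4 := (smul_eq_zero.1 e2).resolve_right hv
    rw [e3]
    exact (sub_eq_zero.1 e4).symm
  obtain ⟨v0, hv0⟩ : ∃ v0 : V, v0 ≠ 0 := by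
    haveI : Nontrivial V := Module.nontrivial_of_finrank_pos (R := K) (by omega)
    exact exists_ne 0
  obtain ⟨f, y, hf1, hf2⟩ := exists_fun_ne (K := K) hm v0
  have hy : y ∉ kpt F K v0 := by
    intro hmem
    obtain ⟨b, rfl⟩ := mem_kpt.1 hmem
    rw [map_smul, hf1, smul_zero] at hf2
    exact zero_ne_one hf2
  have h3 : ∀ v : V, v ≠ 0 → c v = c v0 := by
    intro v hv
    by_cases hvm : v ∈ kpt F K v0
    · have hk := kpt_eq_of_mem (F := F) hv hvm
      rw [h2 v y hv (by rw [hk]; exact hy), h2 v0 y hv0 hy]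
    · exact (h2 v0 v hv0 hvm).symm
  refine ⟨c v0, fun u => ?_⟩
  by_cases hu : u = 0
  · simp [hu]
  · have hgu : g u ≠ 0 := fun h0 => hu (by simpa using h0)
    have := hc (g u) hgu
    rw [LinearEquiv.symm_apply_apply, h3 _ hgu] at this
    exact this

end Cfsg.Agent.Lib.Helper97.C3
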