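import Cfsg.Agent.Lib.Helper97.C3.NORM
import Cfsg.Agent.Lib.Helper97.C3.SPREAD
import Cfsg.Agent.Lib.Helper97.C3.MAXINT
import Cfsg.Agent.Lib.Helper97.C3.RK1
import Cfsg.Agent.Lib.Helper97.C3.M3
import Cfsg.Agent.Lib.Helper97.C3.TLAM
import Cfsg.Agent.Lib.Helper97.C3.R3
import Cfsg.Agent.Lib.Helper97.C3.R2Q3
import Cfsg.Agent.Lib.Helper97.C3.R222
import Cfsg.Agent.Lib.Helper97.C3.AD3
import Cfsg.Agent.Lib.Helper97.C3.AD2
import Cfsg.Agent.Lib.Helper97.C3.ALL
import Cfsg.Agent.Lib.Helper97.C3.NOTN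

/-!
# Ladder C3: assembly of the abstract theorem
-/

set_option autoImplicit false

namespace Cfsg.Agent.Lib.Helper97.C3

open Module

variable {F K V : Type*} [Field F] [Field K] [Algebra F K] [AddCommGroup V]
  [Module F V] [Module K V] [IsScalarTower F K V]

/-- An overgroup not normalising `K` contains all `F`-transvections. -/
theorem core [Fintype F] [FiniteDimensional F K] [FiniteDimensional K V]
    (hr : (finrank F K).Prime) (hm : 2 ≤ finrank K V)
    (X : Subgroup (V ≃ₗ[F] V)) (hX : Big K X) (g : V ≃ₗ[F] V) (hg : g ∈ X) (hgN : ¬ Nrm K g)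
    (φ : Module.Dual F V) (v : V) (hφ : φ v = 0) : LinearEquiv.transvection hφ ∈ X := by
  apply all_transvections (K := K) hm X
  have h1 : ∃ x₀ : V, ∀ y : V, (kpt F K x₀).map g.toLinearMap ≠ kpt F K y := by
    by_contra hcon
    push Not at hcon
    exact hgN (nrm_of_points hm g hcon)
  obtain ⟨x₀, hx₀⟩ := h1
  obtain ⟨x, g', x₀', hc⟩ := exists_close hr X hX g hg x₀ hx₀
  obtain ⟨ω, hw⟩ := closeW_of_close X hc
  rcases Nat.lt_or_ge 2 (finrank K V) with h3 | h3
  · exact allATV_of_three h3 X hX (hasATV_of_three h3 X hX hw)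
  · have hm2 : finrank K V = 2 := le_antisymm h3 hm
    apply allATV_of_two hr.two_le hm2 X hX
    obtain ⟨ω', hω', ht⟩ := tact_of_closeW X hX hw
    rcases Nat.lt_or_ge 2 (finrank F K) with hr3 | hr3
    · exact hasATV_of_tact_three hr hr3 hm X hX hw.1 hω' ht
    · have hr2 : finrank F K = 2 := le_antisymm hr3 hr.two_le
      rcases Nat.lt_or_ge 2 (Fintype.card F) with hq | hq
      · exact hasATV_of_tact_two hr2 hm2 hq X hX hw.1 hω' ht
      · have hq2 : Fintype.card F = 2 := le_antisymm hq Fintype.one_lt_card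
        exact hasATV_of_two_two_two hr2 hm2 hq2 X hX g hg x₀ hx₀

end Cfsg.Agent.Lib.Helper97.C3
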