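import Mathlib

/-!
# Extension-field subgroups of `SL_n(F)`: common definitions (ladder C3, statement S5886)

`F ⊆ K` finite fields, `V` a `K`-space regarded as an `F`-space.  `X` is a group of `F`-linear
automorphisms of `V` containing every determinant-one automorphism normalising `K`.
-/

set_option autoImplicit false

namespace Cfsg.Agent.Lib.Helper97.C3

open Module

variable (F K : Type*) {V : Type*} [Field F] [Field K] [Algebra F K] [AddCommGroup V]
  [Module F V] [Module K V] [IsScalarTower F K V]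

/-- The `K`-point spanned by `x`, as an `F`-subspace. -/
def kpt (x : V) : Submodule F V := (Submodule.span K {x}).restrictScalars F

variable {F K}

lemma mem_kpt {x y : V} : y ∈ kpt F K x ↔ ∃ a : K, a • x = y := by
  simp [kpt, Submodule.mem_span_singleton]

lemma self_mem_kpt (x : V) : x ∈ kpt F K x := mem_kpt.2 ⟨1, one_smul _ _⟩

lemma smul_mem_kpt (a : K) (x : V) : a • x ∈ kpt F K x := mem_kpt.2 ⟨a, rfl⟩

variable (K) in
/-- `e` normalises the field `K` of scalars. -/
def Nrm (e : V ≃ₗ[F] V) : Prop := ∀ a : K, ∃ b : K, ∀ v : V, e (a • v) = b • e v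

variable (F) in
/-- A `K`-transvection, as an `F`-linear automorphism. -/
def ktv (f : V →ₗ[K] K) (x : V) (h : f x = 0) : V ≃ₗ[F] V :=
  (LinearEquiv.transvection (f := f) (v := x) h).restrictScalars F

@[simp] lemma ktv_apply (f : V →ₗ[K] K) (x : V) (h : f x = 0) (v : V) :
    ktv F f x h v = v + f v • x := rfl

lemma ktv_inv_apply (f : V →ₗ[K] K) (x : V) (h : f x = 0) (v : V) :
    (ktv F f x h)⁻¹ v = v - f v • x := by
  have h1 : ktv F f x h (v - f v • x) = v := by
    simp [h]
  calc (ktv F f x h)⁻¹ v = (ktv F f x h)⁻¹ (ktv F f x h (v - f v • x)) := by rw [h1]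
    _ = v - f v • x := by
      change (ktv F f x h).symm (ktv F f x h (v - f v • x)) = _
      rw [LinearEquiv.symm_apply_apply]

variable (F) in
/-- A `K`-dilatation `v ↦ v + f v • x` (`1 + f x ≠ 0`), as an `F`-linear automorphism. -/
noncomputable def kdil (f : V →ₗ[K] K) (x : V) (h : 1 + f x ≠ 0) : V ≃ₗ[F] V :=
  (LinearEquiv.dilatransvection (f := f) (v := x) (isUnit_iff_ne_zero.2 h)).restrictScalars F

@[simp] lemma kdil_apply (f : V →ₗ[K] K) (x : V) (h : 1 + f x ≠ 0) (v : V) :
    kdil F f x h v = v + f v • x := by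
  change LinearEquiv.dilatransvection (f := f) (v := x) (isUnit_iff_ne_zero.2 h) v = _
  rw [LinearEquiv.dilatransvection.apply]

/-- An `F`-transvection adapted to `K`: centre `u`, axis containing the `K`-hyperplane `ker f ∋ u`. -/
def atv (κ : K →ₗ[F] F) (f : V →ₗ[K] K) (u : V) (h : f u = 0) : V ≃ₗ[F] V :=
  LinearEquiv.transvection (f := κ ∘ₗ f.restrictScalars F) (v := u) (by simp [h])

@[simp] lemma atv_apply (κ : K →ₗ[F] F) (f : V →ₗ[K] K) (u : V) (h : f u = 0) (v : V) :
    atv κ f u h v = v + κ (f v) • u := rfl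

variable (K) in
/-- `X` contains every determinant-one automorphism normalising `K`. -/
def Big (X : Subgroup (V ≃ₗ[F] V)) : Prop :=
  ∀ e : V ≃ₗ[F] V, Nrm K e → LinearEquiv.det e = 1 → e ∈ X

variable (K) in
/-- `X` contains a non-trivial adapted transvection. -/
def HasATV (X : Subgroup (V ≃ₗ[F] V)) : Prop :=
  ∃ (κ : K →ₗ[F] F) (f : V →ₗ[K] K) (u : V) (h : f u = 0),
    κ ≠ 0 ∧ f ≠ 0 ∧ u ≠ 0 ∧ atv κ f u h ∈ X

variable (K) in
/-- `X` contains all adapted transvections. -/
def AllATV (X : Subgroup (V ≃ₗ[F] V)) : Prop :=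
  ∀ (κ : K →ₗ[F] F) (f : V →ₗ[K] K) (u : V) (h : f u = 0), atv κ f u h ∈ X

variable (K) in
/-- The `K`-point of `x` and the image under `g ∈ X` of the `K`-point of `x₀` meet in a hyperplane
of each. -/
def Close (X : Subgroup (V ≃ₗ[F] V)) (x : V) (g : V ≃ₗ[F] V) (x₀ : V) : Prop :=
  x ≠ 0 ∧ x₀ ≠ 0 ∧ g ∈ X ∧
    finrank F ↥(kpt F K x ⊓ (kpt F K x₀).map g.toLinearMap) + 1 = finrank F K

lemma nrm_restrictScalars (e : V ≃ₗ[K] V) : Nrm K (e.restrictScalars F) :=
  fun a => ⟨a, fun v => by simp⟩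

/-- A `K`-linear automorphism whose `K`-determinant has norm one lies in `X`. -/
lemma klin_mem {X : Subgroup (V ≃ₗ[F] V)} (hX : Big K X) (e : V ≃ₗ[K] V)
    (he : Algebra.norm F (LinearMap.det (e : V →ₗ[K] V)) = 1) : e.restrictScalars F ∈ X := by
  apply hX _ (nrm_restrictScalars e)
  rw [← Units.val_inj, LinearEquiv.coe_det, Units.val_one]
  have : ((e.restrictScalars F : V ≃ₗ[F] V) : V →ₗ[F] V) = (e : V →ₗ[K] V).restrictScalars F := rfl
  rw [this, LinearMap.det_restrictScalars, he]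

lemma ktv_mem {X : Subgroup (V ≃ₗ[F] V)} (hX : Big K X) (f : V →ₗ[K] K) (x : V) (h : f x = 0) :
    ktv F f x h ∈ X := by
  apply klin_mem hX
  have := LinearEquiv.transvection.det_eq_one (f := f) (v := x) h
  rw [← Units.val_inj, LinearEquiv.coe_det, Units.val_one] at this
  rw [this, map_one]

lemma kdil_mem [FiniteDimensional K V] {X : Subgroup (V ≃ₗ[F] V)} (hX : Big K X) (f : V →ₗ[K] K)
    (x : V) (h : 1 + f x ≠ 0) (hn : Algebra.norm F (1 + f x) = 1) : kdil F f x h ∈ X := by
  apply klin_mem hX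
  have : ((LinearEquiv.dilatransvection (f := f) (v := x) (isUnit_iff_ne_zero.2 h) : V ≃ₗ[K] V) :
      V →ₗ[K] V) = LinearMap.transvection f x := rfl
  rw [this, LinearMap.transvection.det, hn]

end Cfsg.Agent.Lib.Helper97.C3
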