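import Cfsg.Agent.Lib.Helper97.C3.Core
import Cfsg.Agent.Lib.Helper95.SLGen

/-!
# Ladder C3: transfer to matrices
-/

set_option autoImplicit false

namespace Cfsg.Agent.Lib.Helper97.C3

open Module Matrix Cfsg.Agent.Lib.Helper95

variable {F : Type*} [Field F] {n : ℕ}

/-- A copy of a field subalgebra of matrices, carrying only the structures defined below. -/
def KK {r : ℕ} (K : Subalgebra F (Matrix (Fin n) (Fin n) F))
    (_hK : Cfsg.Geo.IsFieldSubalgebra r K) : Type _ := ↥K

section KK

variable [NeZero n] {r : ℕ} (K : Subalgebra F (Matrix (Fin n) (Fin n) F))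
    (hK : Cfsg.Geo.IsFieldSubalgebra r K)

/-- The field structure. -/
noncomputable def fieldKK : Field (KK K hK) :=
  @IsField.toField ↥K _
    { exists_pair_ne := ⟨0, 1, fun h => by
        have h1 : (0 : Matrix (Fin n) (Fin n) F) = 1 := congrArg Subtype.val h
        exact zero_ne_one h1⟩
      mul_comm := fun a b => Subtype.ext (hK.comm a.1 a.2 b.1 b.2)
      mul_inv_cancel := fun {a} ha => by
        obtain ⟨y, hy, hxy⟩ := hK.inv a.1 a.2 (fun h => ha (Subtype.ext h))
        exact ⟨⟨y, hy⟩, Subtype.ext hxy⟩ }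

noncomputable instance : Field (KK K hK) := fieldKK K hK

/-- The underlying matrix. -/
def KK.mat (a : KK K hK) : Matrix (Fin n) (Fin n) F := Subtype.val (p := fun x => x ∈ K) a

lemma KK.mat_mem (a : KK K hK) : KK.mat K hK a ∈ K := Subtype.property (p := fun x => x ∈ K) a

/-- Constructor. -/
def KK.mk (k : Matrix (Fin n) (Fin n) F) (hk : k ∈ K) : KK K hK := (⟨k, hk⟩ : ↥K)

@[simp] lemma KK.mat_mk (k : Matrix (Fin n) (Fin n) F) (hk : k ∈ K) :
    KK.mat K hK (KK.mk K hK k hk) = k := rfl

lemma KK.ext {a b : KK K hK} (h : KK.mat K hK a = KK.mat K hK b) : a = b :=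
  Subtype.ext (p := fun x => x ∈ K) h

/-- The inclusion as a ring homomorphism. -/
noncomputable def KK.incl : KK K hK →+* Matrix (Fin n) (Fin n) F where
  toFun := KK.mat K hK
  map_one' := rfl
  map_mul' _ _ := rfl
  map_zero' := rfl
  map_add' _ _ := rfl

noncomputable instance : Algebra F (KK K hK) :=
  RingHom.toAlgebra
    { toFun := fun c => KK.mk K hK (algebraMap F _ c) (K.algebraMap_mem c)
      map_one' := KK.ext K hK (by simp; rfl)
      map_mul' := fun a b => KK.ext K hK (by
        change algebraMap F (Matrix (Fin n) (Fin n) F) (a * b) = algebraMap F _ a * algebraMap F _ b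
        rw [map_mul])
      map_zero' := KK.ext K hK (by simp; rfl)
      map_add' := fun a b => KK.ext K hK (by
        change algebraMap F (Matrix (Fin n) (Fin n) F) (a + b) = algebraMap F _ a + algebraMap F _ b
        rw [map_add]) }

noncomputable instance : Module (KK K hK) (Fin n → F) :=
  Module.compHom (Fin n → F)
    ((Matrix.toLinAlgEquiv' : Matrix (Fin n) (Fin n) F ≃ₐ[F] _).toAlgHom.toRingHom.comp
      (KK.incl K hK))

lemma KK.smul_def (a : KK K hK) (v : Fin n → F) : a • v = KK.mat K hK a *ᵥ v := rfl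

lemma KK.mat_smul (c : F) (a : KK K hK) : KK.mat K hK (c • a) = c • KK.mat K hK a := by
  rw [Algebra.smul_def]
  change algebraMap F (Matrix (Fin n) (Fin n) F) c * KK.mat K hK a = _
  rw [← Algebra.smul_def]

instance : IsScalarTower F (KK K hK) (Fin n → F) := ⟨fun c a v => by
  rw [KK.smul_def, KK.smul_def, KK.mat_smul, Matrix.smul_mulVec]⟩

lemma KK.finrank_eq : finrank F (KK K hK) = r := by
  let e : KK K hK ≃ₗ[F] ↥K :=
    { toFun := fun a => (⟨KK.mat K hK a, KK.mat_mem K hK a⟩ : ↥K)
      invFun := fun a => KK.mk K hK a.1 a.2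
      left_inv := fun a => rfl
      right_inv := fun a => rfl
      map_add' := fun a b => rfl
      map_smul' := fun c a => Subtype.ext (KK.mat_smul K hK c a) }
  exact e.finrank_eq.trans hK.finrank_eq


end KK

section main

variable [Fintype F] {r : ℕ} (K : Subalgebra F (Matrix (Fin n) (Fin n) F))

lemma conj_mem_iff (g : GL (Fin n) F)
    (h : ∀ k ∈ K, (g : Matrix (Fin n) (Fin n) F) * k * ((g⁻¹ : GL (Fin n) F) : Matrix (Fin n) (Fin n) F) ∈ K) :
    g ∈ Cfsg.Geo.subalgebraNormalizer K := by
  intro k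
  refine ⟨h k, fun hk => ?_⟩
  let c : K →ₗ[F] K :=
    { toFun := fun a => ⟨_, h a.1 a.2⟩
      map_add' := fun a b => by ext : 1; simp [mul_add, add_mul]
      map_smul' := fun t a => by ext : 1; simp }
  have hinj : Function.Injective c := by
    intro a b hab
    have h1 : (g : Matrix (Fin n) (Fin n) F) * a.1 * ((g⁻¹ : GL (Fin n) F) : Matrix _ _ F)
        = (g : Matrix (Fin n) (Fin n) F) * b.1 * ((g⁻¹ : GL (Fin n) F) : Matrix _ _ F) :=
      congrArg Subtype.val hab
    have h2 := congrArg (fun M => ((g⁻¹ : GL (Fin n) F) : Matrix _ _ F) * M * (g : Matrix _ _ F)) h1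
    simp only [← mul_assoc] at h2
    simp only [← Units.val_mul, inv_mul_cancel, Units.val_one, one_mul] at h2
    simp only [mul_assoc, ← Units.val_mul, inv_mul_cancel, Units.val_one, mul_one] at h2
    exact Subtype.ext h2
  obtain ⟨a, ha⟩ := (LinearMap.injective_iff_surjective.1 hinj) ⟨_, hk⟩
  have h1 : (g : Matrix (Fin n) (Fin n) F) * a.1 * ((g⁻¹ : GL (Fin n) F) : Matrix _ _ F)
        = (g : Matrix (Fin n) (Fin n) F) * k * ((g⁻¹ : GL (Fin n) F) : Matrix _ _ F) :=
      congrArg Subtype.val ha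
  have h2 := congrArg (fun M => ((g⁻¹ : GL (Fin n) F) : Matrix _ _ F) * M * (g : Matrix _ _ F)) h1
  simp only [← mul_assoc] at h2
  simp only [← Units.val_mul, inv_mul_cancel, Units.val_one, one_mul] at h2
  simp only [mul_assoc, ← Units.val_mul, inv_mul_cancel, Units.val_one, mul_one] at h2
  rw [← h2]
  exact a.2

/-- The main transfer. -/
theorem glue (hr : r.Prime) (hlt : r < n) (hK : Cfsg.Geo.IsFieldSubalgebra r K) :
    IsCoatom (Cfsg.Geo.subalgebraNormalizer K) ∧
      Cfsg.Geo.IsMaximalIn (Cfsg.Geo.specialLinear (Fin n) F)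
        (Cfsg.Geo.subalgebraNormalizer K ⊓ Cfsg.Geo.specialLinear (Fin n) F) := by
  haveI : NeZero n := ⟨by omega⟩
  haveI : Nontrivial (Fin n) := Fin.nontrivial_iff_two_le.2 (by have := hr.two_le; omega)
  have hsmul : ∀ (a : KK K hK) (v : Fin n → F), a • v = KK.mat K hK a *ᵥ v := fun a v => rfl
  have hrK : finrank F (KK K hK) = r := KK.finrank_eq K hK
  haveI : FiniteDimensional F (KK K hK) :=
    Module.finite_of_finrank_pos (by rw [hrK]; exact hr.pos)
  haveI : FiniteDimensional (KK K hK) (Fin n → F) :=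
    Module.Finite.of_restrictScalars_finite F (KK K hK) _
  have hm : 2 ≤ finrank (KK K hK) (Fin n → F) := by
    have h1 := Module.finrank_mul_finrank F (KK K hK) (Fin n → F)
    rw [hrK, Module.finrank_fin_fun] at h1
    by_contra hcon
    have h2 : finrank (KK K hK) (Fin n → F) ≤ 1 := by omega
    have : r * finrank (KK K hK) (Fin n → F) ≤ r * 1 := Nat.mul_le_mul_left r h2
    omega
  have hrp : (finrank F (KK K hK)).Prime := by rw [hrK]; exact hr
  -- normaliser versus `Nrm`
  have hN1 : ∀ g : GL (Fin n) F, Nrm (KK K hK) (glEquiv g) → g ∈ Cfsg.Geo.subalgebraNormalizer K := by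
    intro g hg
    apply conj_mem_iff
    intro k hk
    obtain ⟨b, hb⟩ := hg (KK.mk K hK k hk)
    have : (g : Matrix (Fin n) (Fin n) F) * k = KK.mat K hK b * (g : Matrix (Fin n) (Fin n) F) := by
      apply Matrix.ext_of_mulVec_single
      intro i
      have := hb (Pi.single i 1)
      rw [glEquiv_apply, glEquiv_apply, hsmul, hsmul, Matrix.mulVec_mulVec, Matrix.mulVec_mulVec] at this
      exact this
    rw [this, mul_assoc, ← Units.val_mul, mul_inv_cancel, Units.val_one, mul_one]
    exact KK.mat_mem K hK b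
  have hN2 : ∀ g : GL (Fin n) F, g ∈ Cfsg.Geo.subalgebraNormalizer K → Nrm (KK K hK) (glEquiv g) := by
    intro g hg a
    refine ⟨KK.mk K hK _ ((hg (KK.mat K hK a)).1 (KK.mat_mem K hK a)), fun v => ?_⟩
    rw [glEquiv_apply, glEquiv_apply, hsmul, hsmul, Matrix.mulVec_mulVec, Matrix.mulVec_mulVec,
      KK.mat_mk, mul_assoc, ← Units.val_mul, inv_mul_cancel, Units.val_one, mul_one]
  -- the key consequence of `core`
  have key : ∀ M : Subgroup (GL (Fin n) F),
      Cfsg.Geo.subalgebraNormalizer K ⊓ Cfsg.Geo.specialLinear (Fin n) F ≤ M →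
      ∀ g ∈ M, g ∉ Cfsg.Geo.subalgebraNormalizer K → Cfsg.Geo.specialLinear (Fin n) F ≤ M := by
    intro M hM g hgM hgN
    have hBig : Big (KK K hK) (toLinGrp M) := by
      intro e he hdet
      rw [mem_toLinGrp]
      apply hM
      refine Subgroup.mem_inf.2 ⟨hN1 _ (by rwa [MulEquiv.apply_symm_apply]), ?_⟩
      rw [mem_specialLinear_iff', MulEquiv.apply_symm_apply]
      exact hdet
    have h1 : slGrp F (Fin n → F) ≤ toLinGrp M := by
      apply slGrp_le_of_transvections
      intro f v hfv
      exact core hrp hm (toLinGrp M) hBig (glEquiv g) (glEquiv_mem_toLinGrp.2 hgM)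
        (fun h => hgN (hN1 g h)) f v hfv
    intro x hx
    exact glEquiv_mem_toLinGrp.1 (h1 ((mem_specialLinear_iff' x).1 hx))
  -- an element of `SL` outside the normaliser
  obtain ⟨s, hs1, hs2⟩ : ∃ s : GL (Fin n) F, s ∈ Cfsg.Geo.specialLinear (Fin n) F ∧
      s ∉ Cfsg.Geo.subalgebraNormalizer K := by
    obtain ⟨u, hu⟩ : ∃ u : Fin n → F, u ≠ 0 := exists_ne 0
    obtain ⟨f, y, hf1, hf2⟩ := exists_fun_ne (K := KK K hK) hm u
    obtain ⟨κ, hκ⟩ := exists_kappa (F := F) (K := KK K hK) (one_ne_zero)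
    refine ⟨glEquiv.symm (atv κ f u hf1), ?_, fun h => ?_⟩
    · rw [mem_specialLinear_iff', MulEquiv.apply_symm_apply]
      exact LinearEquiv.transvection.det_eq_one _
    · have := hN2 _ h
      rw [MulEquiv.apply_symm_apply] at this
      refine not_nrm_atv hrp.two_le κ f u hf1 ?_ ?_ hu this
      · rintro rfl; simp at hκ
      · rintro rfl; simp at hf2
  refine ⟨⟨fun h => hs2 (h ▸ Subgroup.mem_top s), fun Y hY => ?_⟩, ?_⟩
  · obtain ⟨g, hgY, hgN⟩ := SetLike.exists_of_lt hY
    have hSL := key Y (inf_le_left.trans hY.le) g hgY hgN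
    rw [eq_top_iff]
    intro h _
    -- an element of the normaliser with the determinant of `h`
    obtain ⟨u, hu⟩ : ∃ u : Fin n → F, u ≠ 0 := exists_ne 0
    obtain ⟨f, hf0, hf1⟩ := exists_fun_one (K := KK K hK) (x := (0 : Fin n → F)) (y := u) (by simpa using hu)
    haveI : Finite (KK K hK) := Module.finite_of_finite F
    obtain ⟨α, hα⟩ := FiniteField.norm_surjective F (KK K hK) (h : Matrix (Fin n) (Fin n) F).det
    have hα0 : α ≠ 0 := by
      rintro rfl
      rw [Algebra.norm_zero] at hα
      have := (Matrix.isUnit_iff_isUnit_det _).1 h.isUnit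
      rw [← hα] at this
      exact not_isUnit_zero this
    have h1 : 1 + ((α - 1) • f) u ≠ 0 := by simpa [hf1] using hα0
    set k : (Fin n → F) ≃ₗ[F] (Fin n → F) := kdil F ((α - 1) • f) u h1 with hk
    have hkN : glEquiv.symm k ∈ Cfsg.Geo.subalgebraNormalizer K := by
      apply hN1
      rw [MulEquiv.apply_symm_apply]
      exact nrm_restrictScalars _
    have hkdet : LinearMap.det (k : (Fin n → F) →ₗ[F] (Fin n → F)) = (h : Matrix (Fin n) (Fin n) F).det := by
      have e1 : (k : (Fin n → F) →ₗ[F] (Fin n → F)) =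
          (LinearMap.transvection ((α - 1) • f) u).restrictScalars F := rfl
      rw [e1, LinearMap.det_restrictScalars, LinearMap.transvection.det, ← hα]
      congr 1
      simp [hf1]
    have h2 : (glEquiv.symm k)⁻¹ * h ∈ Cfsg.Geo.specialLinear (Fin n) F := by
      rw [mem_specialLinear_iff]
      have e2 : ((glEquiv.symm k : GL (Fin n) F) : Matrix (Fin n) (Fin n) F).det
          = (h : Matrix (Fin n) (Fin n) F).det := by
        rw [← hkdet]
        have : (k : (Fin n → F) →ₗ[F] (Fin n → F))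
            = Matrix.toLin' ((glEquiv.symm k : GL (Fin n) F) : Matrix (Fin n) (Fin n) F) := by
          apply LinearMap.ext
          intro x
          rw [Matrix.toLin'_apply, glEquiv_symm_mulVec]
          rfl
        rw [this, LinearMap.det_toLin']
      have e3 : ((glEquiv.symm k : GL (Fin n) F) : Matrix (Fin n) (Fin n) F).det *
          (((glEquiv.symm k)⁻¹ * h : GL (Fin n) F) : Matrix (Fin n) (Fin n) F).det
          = (h : Matrix (Fin n) (Fin n) F).det := by
        rw [← Matrix.det_mul, ← Units.val_mul, mul_inv_cancel_left]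
      rw [e2] at e3
      have hne : (h : Matrix (Fin n) (Fin n) F).det ≠ 0 :=
        ((Matrix.isUnit_iff_isUnit_det _).1 h.isUnit).ne_zero
      exact mul_left_cancel₀ hne (by rw [e3, mul_one])
    have h3 := Y.mul_mem (hY.le hkN) (hSL h2)
    rwa [mul_inv_cancel_left] at h3
  · refine isMaximalIn_of inf_le_right ⟨s, hs1, fun h => hs2 h.1⟩ ?_
    intro M hM hMS g hgM hgH
    exact key M hM g hgM (fun hgN => hgH ⟨hgN, hMS hgM⟩)

end main

end Cfsg.Agent.Lib.Helper97.C3
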