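import Cfsg.Agent.Lib.Helper97.C3.Basic

/-!
# Ladder C3, rung NORM: norm-one elements of a finite extension `K / F`
-/

set_option autoImplicit false

namespace Cfsg.Agent.Lib.Helper97.C3

open Module Polynomial

variable {F K : Type*} [Field F] [Field K] [Algebra F K]

private lemma NORM_norm_pow [Fintype F] [FiniteDimensional F K] {l : K} (hl : l ≠ 0) :
    Algebra.norm F (l ^ (Fintype.card F - 1)) = 1 := by
  rw [map_pow]
  apply FiniteField.pow_card_sub_one_eq_one
  rw [Ne, Algebra.norm_eq_zero_iff]
  exact hl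

private lemma NORM_mem_of_pow [Fintype F] {l : K} (h : l ^ Fintype.card F = l) :
    ∃ c : F, algebraMap F K c = l := by
  classical
  by_contra hcon
  push Not at hcon
  have hq : 1 < Fintype.card F := Fintype.one_lt_card
  set P : K[X] := X ^ Fintype.card F - X with hP
  have hP0 : P ≠ 0 := FiniteField.X_pow_card_sub_X_ne_zero K hq
  have hdeg : P.natDegree = Fintype.card F := FiniteField.X_pow_card_sub_X_natDegree_eq K hq
  have hroot : ∀ y : K, y ^ Fintype.card F = y → y ∈ P.roots.toFinset := by
    intro y hy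
    rw [Multiset.mem_toFinset, mem_roots hP0, IsRoot.def, hP]
    simp [hy]
  have hsub : insert l (Finset.univ.image (algebraMap F K)) ⊆ P.roots.toFinset := by
    intro y hy
    rw [Finset.mem_insert, Finset.mem_image] at hy
    rcases hy with rfl | ⟨c, -, rfl⟩
    · exact hroot _ h
    · apply hroot
      rw [← map_pow, FiniteField.pow_card]
  have h1 := Finset.card_le_card hsub
  have h2 : (insert l (Finset.univ.image (algebraMap F K))).card = Fintype.card F + 1 := by
    rw [Finset.card_insert_of_notMem, Finset.card_image_of_injective _ (algebraMap F K).injective,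
      Finset.card_univ]
    intro hmem
    obtain ⟨c, -, hc⟩ := Finset.mem_image.1 hmem
    exact hcon c hc
  have h3 : P.roots.toFinset.card ≤ Fintype.card F := by
    calc P.roots.toFinset.card ≤ Multiset.card P.roots := Multiset.toFinset_card_le _
      _ ≤ P.natDegree := card_roots' P
      _ = Fintype.card F := hdeg
  omega

private lemma NORM_exists_notMem [FiniteDimensional F K] (hr : 2 ≤ finrank F K) :
    ∃ l : K, ∀ c : F, algebraMap F K c ≠ l := by
  by_contra hcon
  push Not at hcon
  have : (⊥ : Subalgebra F K) = ⊤ := by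
    rw [eq_top_iff]
    intro y _
    exact Algebra.mem_bot.2 (hcon y)
  rw [Subalgebra.bot_eq_top_iff_finrank_eq_one] at this
  omega

/-- the key identity -/
private lemma NORM_key [Fintype F] {l : K} (hl : ∀ c : F, algebraMap F K c ≠ l) :
    l ≠ 0 ∧ 1 + l ≠ 0 ∧ (1 + l) ^ (Fintype.card F - 1) ≠ l ^ (Fintype.card F - 1) ∧
      ((1 + l) ^ (Fintype.card F - 1) - l ^ (Fintype.card F - 1)) * l
        = 1 - (1 + l) ^ (Fintype.card F - 1) := by
  have hq : 1 < Fintype.card F := Fintype.one_lt_card
  have hl0 : l ≠ 0 := fun h => hl 0 (by rw [map_zero, h])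
  have hl1 : 1 + l ≠ 0 := by
    intro h
    apply hl (-1)
    rw [map_neg, map_one]
    exact (eq_neg_of_add_eq_zero_right h).symm
  have hfrob : (1 + l) ^ Fintype.card F = 1 + l ^ Fintype.card F := by
    have := map_add (FiniteField.frobeniusAlgHom F K) 1 l
    simpa [FiniteField.frobeniusAlgHom_apply] using this
  have hsplit : ∀ y : K, y ^ Fintype.card F = y ^ (Fintype.card F - 1) * y := by
    intro y
    rw [← pow_succ]
    congr 1
    omega
  have hid : ((1 + l) ^ (Fintype.card F - 1) - l ^ (Fintype.card F - 1)) * l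
        = 1 - (1 + l) ^ (Fintype.card F - 1) := by
    have h1 := hfrob
    rw [hsplit (1 + l), hsplit l] at h1
    linear_combination h1
  refine ⟨hl0, hl1, ?_, hid⟩
  intro hab
  rw [hab, sub_self, zero_mul] at hid
  have hb : l ^ (Fintype.card F - 1) = 1 := (sub_eq_zero.1 hid.symm).symm
  obtain ⟨c, hc⟩ := NORM_mem_of_pow (F := F) (l := l) (by rw [hsplit, hb, one_mul])
  exact hl c hc

theorem exists_norm_one [Fintype F] [FiniteDimensional F K] (hr : 2 ≤ finrank F K) :
    ∃ α : K, Algebra.norm F α = 1 ∧ ∀ c : F, algebraMap F K c ≠ α := by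
  obtain ⟨l, hl⟩ := NORM_exists_notMem (F := F) (K := K) hr
  obtain ⟨hl0, hl1, hne, hid⟩ := NORM_key hl
  by_contra hcon
  push Not at hcon
  obtain ⟨ca, hca⟩ := hcon _ (NORM_norm_pow (F := F) hl1)
  obtain ⟨cb, hcb⟩ := hcon _ (NORM_norm_pow (F := F) hl0)
  apply hl ((1 - ca) / (ca - cb))
  rw [map_div₀, map_sub, map_sub, map_one, hca, hcb, ← hid,
    mul_div_assoc, mul_comm, div_mul_cancel₀ _ (sub_ne_zero.2 hne)]

theorem closure_norm_one [Fintype F] [FiniteDimensional F K] (hr : 2 ≤ finrank F K) :
    Subring.closure {δ : K | Algebra.norm F δ = 1} = ⊤ := by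
  have hfin : Finite K := Module.finite_of_finite F
  have := Fintype.ofFinite K
  set L := Subring.closure {δ : K | Algebra.norm F δ = 1} with hL
  have hinv : ∀ y ∈ L, y ≠ 0 → y⁻¹ ∈ L := by
    intro y hy hy0
    have h1 : y ^ (Fintype.card K - 1) = 1 := FiniteField.pow_card_sub_one_eq_one y hy0
    have hK : 1 < Fintype.card K := Fintype.one_lt_card
    have h2 : y⁻¹ = y ^ (Fintype.card K - 2) := by
      apply inv_eq_of_mul_eq_one_left
      rw [← pow_succ, show Fintype.card K - 2 + 1 = Fintype.card K - 1 by omega, h1]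
    rw [h2]
    exact L.pow_mem hy _
  have hout : ∀ l : K, (∀ c : F, algebraMap F K c ≠ l) → l ∈ L := by
    intro l hl
    obtain ⟨hl0, hl1, hne, hid⟩ := NORM_key hl
    have ha : (1 + l) ^ (Fintype.card F - 1) ∈ L := Subring.subset_closure (NORM_norm_pow (F := F) hl1)
    have hb : l ^ (Fintype.card F - 1) ∈ L := Subring.subset_closure (NORM_norm_pow (F := F) hl0)
    have h3 : l = (1 - (1 + l) ^ (Fintype.card F - 1)) *
        ((1 + l) ^ (Fintype.card F - 1) - l ^ (Fintype.card F - 1))⁻¹ := by
      rw [← hid, mul_comm _ l, mul_assoc, mul_inv_cancel₀ (sub_ne_zero.2 hne), mul_one]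
    rw [h3]
    exact L.mul_mem (L.sub_mem L.one_mem ha) (hinv _ (L.sub_mem ha hb) (sub_ne_zero.2 hne))
  obtain ⟨l, hl⟩ := NORM_exists_notMem (F := F) (K := K) hr
  rw [eq_top_iff]
  intro y _
  by_cases hy : ∀ c : F, algebraMap F K c ≠ y
  · exact hout y hy
  · push Not at hy
    obtain ⟨c, rfl⟩ := hy
    have h4 : algebraMap F K c + l ∈ L := by
      apply hout
      intro c' hc'
      apply hl (c' - c)
      rw [map_sub, hc']
      ring
    have : algebraMap F K c = (algebraMap F K c + l) - l := by ring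
    rw [this]
    exact L.sub_mem h4 (hout l hl)

end Cfsg.Agent.Lib.Helper97.C3
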