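import Cfsg.Agent.Lib.Helper97.C3.Basic

set_option autoImplicit false

namespace Cfsg.Agent.Lib.Helper97.C3

open Module

variable {F K V : Type*} [Field F] [Field K] [Algebra F K] [AddCommGroup V]
  [Module F V] [Module K V] [IsScalarTower F K V]

theorem not_nrm_atv [FiniteDimensional F K] (hr : 2 ≤ finrank F K) (κ : K →ₗ[F] F) (f : V →ₗ[K] K) (u : V)
    (h : f u = 0) (hκ : κ ≠ 0) (hf : f ≠ 0) (hu : u ≠ 0) : ¬ Nrm K (atv κ f u h) := by
  intro hN
  obtain ⟨l0, hl0⟩ : ∃ l, κ l ≠ 0 := by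
    by_contra hc
    push Not at hc
    exact hκ (LinearMap.ext hc)
  obtain ⟨w, hw⟩ : ∃ w, f w ≠ 0 := by
    by_contra hc
    push Not at hc
    exact hf (LinearMap.ext hc)
  obtain ⟨v1, hv1⟩ : ∃ v1, κ (f v1) = 1 := by
    refine ⟨(κ l0)⁻¹ • ((l0 * (f w)⁻¹) • w), ?_⟩
    rw [LinearMap.map_smul_of_tower, map_smul, map_smul, smul_eq_mul, smul_eq_mul, mul_assoc,
      inv_mul_cancel₀ hw, mul_one, inv_mul_cancel₀ hl0]
  have key : ∀ a : K, ∃ c : F, c • (1 : K) = a := by
    intro a
    obtain ⟨b, hb⟩ := hN a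
    have h1 := hb u
    simp only [atv_apply, map_smul, h, smul_zero, map_zero, zero_smul, add_zero] at h1
    have hab : a = b := smul_left_injective K hu h1
    subst hab
    have h2 := hb v1
    simp only [atv_apply, hv1, one_smul, smul_add] at h2
    have h3 := add_left_cancel h2
    refine ⟨κ (f (a • v1)), ?_⟩
    apply smul_left_injective K hu
    show (κ (f (a • v1)) • (1 : K)) • u = a • u
    rw [smul_assoc, one_smul, h3]
  have := finrank_le_one (R := F) (1 : K) key
  omega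

end Cfsg.Agent.Lib.Helper97.C3
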